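import Mathlib
import Cfsg.Agent.LieClassical.SLGen

/-!
Subgroups of `SL_n(F)` containing transvections `1 + a ⊗ φ`.
`Has H a φ` : the transvection `1 + a ⊗ φ` (with `φ(a) = 0`) lies in `H`.
-/

set_option autoImplicit false

namespace Cfsg.Agent.H107.SLHas

open Matrix

variable {n : ℕ} {F : Type*} [Field F]

/-- `H` contains the transvection `1 + a ⊗ φ`. -/
def Has (H : Subgroup (Matrix.SpecialLinearGroup (Fin n) F)) (a φ : Fin n → F) : Prop :=
  φ ⬝ᵥ a = 0 ∧ ∃ g ∈ H, (g : Matrix (Fin n) (Fin n) F) = 1 + vecMulVec a φ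

/-- `H` contains all the transvections `1 + c a ⊗ φ`. -/
def Full (H : Subgroup (Matrix.SpecialLinearGroup (Fin n) F)) (a φ : Fin n → F) : Prop :=
  ∀ c : F, Has H a (c • φ)

variable {H : Subgroup (Matrix.SpecialLinearGroup (Fin n) F)} {a b φ ψ : Fin n → F}

theorem inv_mul_coe (g : Matrix.SpecialLinearGroup (Fin n) F) :
    ((g⁻¹ : Matrix.SpecialLinearGroup (Fin n) F) : Matrix (Fin n) (Fin n) F) *
      (g : Matrix (Fin n) (Fin n) F) = 1 := by
  rw [← Matrix.SpecialLinearGroup.coe_mul, inv_mul_cancel, Matrix.SpecialLinearGroup.coe_one]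

theorem mul_inv_coe (g : Matrix.SpecialLinearGroup (Fin n) F) :
    (g : Matrix (Fin n) (Fin n) F) *
      ((g⁻¹ : Matrix.SpecialLinearGroup (Fin n) F) : Matrix (Fin n) (Fin n) F) = 1 := by
  rw [← Matrix.SpecialLinearGroup.coe_mul, mul_inv_cancel, Matrix.SpecialLinearGroup.coe_one]

theorem Full.has (h : Full H a φ) : Has H a φ := by simpa using h 1

theorem has_zero_right (a : Fin n → F) : Has H a 0 :=
  ⟨by simp, 1, H.one_mem, by simp [vecMulVec_zero]⟩

theorem has_zero_left (φ : Fin n → F) : Has H 0 φ :=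
  ⟨by simp, 1, H.one_mem, by simp [zero_vecMulVec]⟩

theorem mul_trans (ha : φ ⬝ᵥ b = 0) :
    (1 + vecMulVec a φ) * (1 + vecMulVec b ψ) = 1 + vecMulVec a φ + vecMulVec b ψ := by
  rw [mul_add, Matrix.mul_one, add_mul, Matrix.one_mul, vecMulVec_mul_vecMulVec, ha]
  simp [vecMulVec_zero]

theorem Has.add_right (h1 : Has H a φ) (h2 : Has H a ψ) : Has H a (φ + ψ) := by
  obtain ⟨h1a, g, hg, e1⟩ := h1
  obtain ⟨h2a, k, hk, e2⟩ := h2
  refine ⟨by rw [add_dotProduct, h1a, h2a, add_zero], g * k, H.mul_mem hg hk, ?_⟩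
  rw [Matrix.SpecialLinearGroup.coe_mul, e1, e2, mul_trans h1a, vecMulVec_add, add_assoc]

theorem Has.add_left (h1 : Has H a φ) (h2 : Has H b φ) : Has H (a + b) φ := by
  obtain ⟨h1a, g, hg, e1⟩ := h1
  obtain ⟨h2a, k, hk, e2⟩ := h2
  refine ⟨by rw [dotProduct_add, h1a, h2a, add_zero], g * k, H.mul_mem hg hk, ?_⟩
  rw [Matrix.SpecialLinearGroup.coe_mul, e1, e2, mul_trans h2a, add_vecMulVec, add_assoc]

theorem Has.conj (h : Has H a φ) {g : Matrix.SpecialLinearGroup (Fin n) F} (hg : g ∈ H) :
    Has H ((g : Matrix (Fin n) (Fin n) F) *ᵥ a)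
      (φ ᵥ* ((g⁻¹ : Matrix.SpecialLinearGroup (Fin n) F) : Matrix (Fin n) (Fin n) F)) := by
  obtain ⟨ha, k, hk, e⟩ := h
  refine ⟨?_, g * k * g⁻¹, H.mul_mem (H.mul_mem hg hk) (H.inv_mem hg), ?_⟩
  · rw [dotProduct_mulVec, vecMul_vecMul, inv_mul_coe, vecMul_one, ha]
  · rw [Matrix.SpecialLinearGroup.coe_mul, Matrix.SpecialLinearGroup.coe_mul, e, mul_add,
      add_mul, Matrix.mul_one, mul_inv_coe, mul_vecMulVec, vecMulVec_mul]

theorem smul_vecMulVec' (c : F) (a φ : Fin n → F) :
    vecMulVec (c • a) φ = vecMulVec a (c • φ) := by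
  ext i j
  simp [vecMulVec_apply]
  ring

theorem has_smul_left_iff {c : F} : Has H (c • a) φ ↔ Has H a (c • φ) := by
  unfold Has
  rw [smul_dotProduct, dotProduct_smul, smul_vecMulVec']

theorem Full.smul_left (h : Full H a φ) (c : F) : Full H (c • a) φ := by
  intro d
  rw [has_smul_left_iff, smul_smul]
  exact h _

theorem Full.smul_right (h : Full H a φ) (c : F) : Full H a (c • φ) := by
  intro d
  rw [smul_smul]
  exact h _

theorem Full.add_right (h1 : Full H a φ) (h2 : Full H a ψ) : Full H a (φ + ψ) := by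
  intro c
  rw [smul_add]
  exact (h1 c).add_right (h2 c)

theorem Full.add_left (h1 : Full H a φ) (h2 : Full H b φ) : Full H (a + b) φ :=
  fun c => (h1 c).add_left (h2 c)

theorem full_zero_right (a : Fin n → F) : Full H a 0 := fun c => by
  rw [smul_zero]; exact has_zero_right a

theorem Full.conj (h : Full H a φ) {g : Matrix.SpecialLinearGroup (Fin n) F} (hg : g ∈ H) :
    Full H ((g : Matrix (Fin n) (Fin n) F) *ᵥ a)
      (φ ᵥ* ((g⁻¹ : Matrix.SpecialLinearGroup (Fin n) F) : Matrix (Fin n) (Fin n) F)) := by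
  intro c
  have := (h c).conj hg
  rwa [smul_vecMul] at this

theorem Has.neg (h : Has H a φ) : Has H a (-φ) := by
  obtain ⟨ha, g, hg, e⟩ := h
  refine ⟨by rw [neg_dotProduct, ha, neg_zero], g⁻¹, H.inv_mem hg, ?_⟩
  have h1 : (g : Matrix (Fin n) (Fin n) F) * (1 + vecMulVec a (-φ)) = 1 := by
    rw [e, mul_trans ha, vecMulVec_neg]
    abel
  calc ((g⁻¹ : Matrix.SpecialLinearGroup (Fin n) F) : Matrix (Fin n) (Fin n) F)
      = (g⁻¹ : Matrix.SpecialLinearGroup (Fin n) F) *
        ((g : Matrix (Fin n) (Fin n) F) * (1 + vecMulVec a (-φ))) := by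
          rw [h1, Matrix.mul_one]
    _ = _ := by rw [← Matrix.mul_assoc, inv_mul_coe, Matrix.one_mul]

theorem Has.neg_left (h : Has H a φ) : Has H (-a) φ := by
  have := h.neg
  rw [← neg_one_smul F a, has_smul_left_iff, neg_one_smul]
  exact this

/-- The commutator of two transvections. -/
theorem Has.comm (h1 : Has H a φ) (h2 : Has H b ψ) (h : ψ ⬝ᵥ a = 0) :
    Has H a ((φ ⬝ᵥ b) • ψ) := by
  have h1' := h1
  obtain ⟨ha, g, hg, e⟩ := h1'
  have hc := h2.conj hg
  have e2 : (g : Matrix (Fin n) (Fin n) F) *ᵥ b = b + (φ ⬝ᵥ b) • a := by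
    rw [e, add_mulVec, one_mulVec, vecMulVec_mulVec]
    simp
  have e3 : ψ ᵥ* ((g⁻¹ : Matrix.SpecialLinearGroup (Fin n) F) : Matrix (Fin n) (Fin n) F) = ψ := by
    have : ψ ᵥ* (g : Matrix (Fin n) (Fin n) F) = ψ := by
      rw [e, vecMul_add, vecMul_one, vecMul_vecMulVec, h, zero_smul, add_zero]
    calc _ = (ψ ᵥ* (g : Matrix (Fin n) (Fin n) F)) ᵥ*
        ((g⁻¹ : Matrix.SpecialLinearGroup (Fin n) F) : Matrix (Fin n) (Fin n) F) := by rw [this]
      _ = ψ := by rw [vecMul_vecMul, mul_inv_coe, vecMul_one]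
  rw [e2, e3] at hc
  have := hc.add_left h2.neg_left
  rw [show b + (φ ⬝ᵥ b) • a + -b = (φ ⬝ᵥ b) • a by abel, has_smul_left_iff] at this
  exact this

theorem Full.comm (h1 : Has H a φ) (h2 : Full H b ψ) (h : ψ ⬝ᵥ a = 0) (h' : φ ⬝ᵥ b ≠ 0) :
    Full H a ψ := by
  intro c
  have := h1.comm (h2 ((φ ⬝ᵥ b)⁻¹ * c)) (by rw [smul_dotProduct, h, smul_zero])
  rwa [smul_smul, mul_inv_cancel_left₀ h'] at this

theorem Full.comm' (h1 : Full H a φ) (h2 : Has H b ψ) (h : ψ ⬝ᵥ a = 0) (h' : φ ⬝ᵥ b ≠ 0) :
    Full H a ψ := by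
  intro c
  have := (h1 ((φ ⬝ᵥ b)⁻¹ * c)).comm h2 h
  rwa [smul_dotProduct, smul_eq_mul, mul_right_comm, inv_mul_cancel₀ h', one_mul] at this

/-- The space of functionals `φ` with `Full H a φ`. -/
def W (H : Subgroup (Matrix.SpecialLinearGroup (Fin n) F)) (a : Fin n → F) :
    Submodule F (Fin n → F) where
  carrier := {φ | Full H a φ}
  add_mem' h1 h2 := Full.add_right h1 h2
  zero_mem' := full_zero_right a
  smul_mem' c _ h := Full.smul_right h c

theorem mem_W : φ ∈ W H a ↔ Full H a φ := Iff.rfl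

theorem dot_of_mem_W (h : φ ∈ W H a) : φ ⬝ᵥ a = 0 := (Full.has h).1

/-- If all transvections lie in `H` then `H = ⊤`. -/
theorem eq_top_of_forall (h : ∀ a φ : Fin n → F, φ ⬝ᵥ a = 0 → Has H a φ) : H = ⊤ := by
  rw [eq_top_iff, ← LieClassical.SLGen.closure_transvections, Subgroup.closure_le]
  rintro A ⟨i, j, hij, c, rfl⟩
  obtain ⟨_, g, hg, e⟩ := h (Pi.single i c) (Pi.single j 1) (by simp [hij.symm])
  have : g = Matrix.SpecialLinearGroup.transvection hij c := by
    apply Subtype.ext
    rw [e]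
    change _ = (1 : Matrix (Fin n) (Fin n) F) + single i j c
    congr 1
    ext k l
    simp only [vecMulVec_apply, single_apply, Pi.single_apply]
    rcases eq_or_ne i k with rfl | h1 <;> rcases eq_or_ne j l with rfl | h2
    · simp
    · simp [h2, h2.symm]
    · simp [h1, h1.symm]
    · simp [h1, h1.symm, h2, h2.symm]
  rw [← this]
  exact hg

theorem exists_dot {x y : Fin n → F} (hx : x ≠ 0) (hy : ∀ c : F, y ≠ c • x) :
    ∃ ψ : Fin n → F, ψ ⬝ᵥ x = 0 ∧ ψ ⬝ᵥ y ≠ 0 := by
  classical
  by_contra hxy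
  push Not at hxy
  have hφx : ∀ i j, x i * y j = x j * y i := by
    intro i j
    have := hxy (Pi.single i (x j) - Pi.single j (x i)) (by
      rw [sub_dotProduct, single_dotProduct, single_dotProduct]; ring)
    rw [sub_dotProduct, single_dotProduct, single_dotProduct] at this
    linear_combination -this
  obtain ⟨i, hi⟩ : ∃ i, x i ≠ 0 := by
    by_contra hcon
    push Not at hcon
    exact hx (funext hcon)
  refine hy (y i * (x i)⁻¹) ?_
  ext j
  simp only [Pi.smul_apply, smul_eq_mul]
  field_simp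
  linear_combination hφx i j

/-- The vectors which are centres of `H`. -/
theorem full_of_point (hb : ∀ φ, φ ⬝ᵥ b = 0 → Has H b φ)
    (hspan : ∀ U : Submodule F (Fin n → F), b ∈ U →
      (∀ g ∈ H, ∀ x ∈ U, (g : Matrix (Fin n) (Fin n) F) *ᵥ x ∈ U) → U = ⊤) : H = ⊤ := by
  classical
  let D : Submodule F (Fin n → F) :=
    { carrier := {x | ∀ φ, φ ⬝ᵥ x = 0 → Has H x φ}
      zero_mem' := fun φ _ => has_zero_left φ
      smul_mem' := by
        intro c x hx φ hφ
        rw [has_smul_left_iff]
        refine hx _ ?_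
        rw [smul_dotProduct, ← dotProduct_smul, hφ]
      add_mem' := by
        intro x y hx hy φ hφ
        by_cases hxy : ∃ ψ : Fin n → F, ψ ⬝ᵥ x = 0 ∧ ψ ⬝ᵥ y ≠ 0
        · obtain ⟨ψ, h1, h2⟩ := hxy
          have h3 : Has H x ((ψ ⬝ᵥ y)⁻¹ • ψ) := hx _ (by rw [smul_dotProduct, h1, smul_zero])
          obtain ⟨_, g, hg, e⟩ := h3
          have e2 : (g : Matrix (Fin n) (Fin n) F) *ᵥ y = x + y := by
            rw [e, add_mulVec, one_mulVec, vecMulVec_mulVec]
            simp [h2, add_comm]
          have e3 : (φ ᵥ* (g : Matrix (Fin n) (Fin n) F)) ⬝ᵥ y = 0 := by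
            rw [← dotProduct_mulVec, e2, hφ]
          have := (hy _ e3).conj hg
          rw [e2, vecMul_vecMul, mul_inv_coe, vecMul_one] at this
          exact this
        · push Not at hxy
          -- `y` is a multiple of `x`
          have hφx : ∀ i j, x i * y j = x j * y i := by
            intro i j
            have := hxy (Pi.single i (x j) - Pi.single j (x i)) (by
              rw [sub_dotProduct, single_dotProduct, single_dotProduct]; ring)
            rw [sub_dotProduct, single_dotProduct, single_dotProduct] at this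
            linear_combination -this
          by_cases hx0 : x = 0
          · rw [hx0, zero_add] at hφ ⊢
            exact hy φ hφ
          · obtain ⟨i, hi⟩ : ∃ i, x i ≠ 0 := by
              by_contra hcon
              push Not at hcon
              exact hx0 (funext hcon)
            have hy' : x + y = ((x i + y i) * (x i)⁻¹) • x := by
              ext j
              simp only [Pi.add_apply, Pi.smul_apply, smul_eq_mul]
              field_simp
              linear_combination hφx i j
            rw [hy'] at hφ ⊢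
            rw [has_smul_left_iff]
            refine hx _ ?_
            rw [smul_dotProduct, ← dotProduct_smul, hφ] }
  have hD : D = ⊤ := by
    refine hspan D hb ?_
    intro g hg x hx φ hφ
    have e3 : (φ ᵥ* (g : Matrix (Fin n) (Fin n) F)) ⬝ᵥ x = 0 := by
      rw [← dotProduct_mulVec, hφ]
    have := (hx _ e3).conj hg
    rw [vecMul_vecMul, mul_inv_coe, vecMul_one] at this
    exact this
  refine eq_top_of_forall fun a φ h => ?_
  have : a ∈ D := by rw [hD]; trivial
  exact this φ h

open Module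

/-- `φ ↦ φ(x)` -/
def ev (x : Fin n → F) : (Fin n → F) →ₗ[F] F where
  toFun φ := φ ⬝ᵥ x
  map_add' φ ψ := add_dotProduct φ ψ x
  map_smul' c φ := by rw [smul_dotProduct]; rfl

theorem ev_apply (x φ : Fin n → F) : ev x φ = φ ⬝ᵥ x := rfl

theorem finrank_W_le_conj {g : Matrix.SpecialLinearGroup (Fin n) F} (hg : g ∈ H)
    (x : Fin n → F) :
    finrank F (W H x) ≤ finrank F (W H ((g : Matrix (Fin n) (Fin n) F) *ᵥ x)) := by
  let f : (Fin n → F) →ₗ[F] (Fin n → F) :=
    { toFun := fun φ =>
        φ ᵥ* ((g⁻¹ : Matrix.SpecialLinearGroup (Fin n) F) : Matrix (Fin n) (Fin n) F)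
      map_add' := fun φ ψ => add_vecMul _ _ _
      map_smul' := fun c φ => by rw [smul_vecMul]; rfl }
  have hf : Function.Injective f := by
    intro φ ψ h
    have h' : φ ᵥ* ((g⁻¹ : Matrix.SpecialLinearGroup (Fin n) F) : Matrix (Fin n) (Fin n) F) =
      ψ ᵥ* ((g⁻¹ : Matrix.SpecialLinearGroup (Fin n) F) : Matrix (Fin n) (Fin n) F) := h
    have h2 := congrArg (· ᵥ* (g : Matrix (Fin n) (Fin n) F)) h'
    simp only [vecMul_vecMul, inv_mul_coe, vecMul_one] at h2
    exact h2
  have hle : (W H x).map f ≤ W H ((g : Matrix (Fin n) (Fin n) F) *ᵥ x) := by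
    rintro _ ⟨φ, hφ, rfl⟩
    exact Full.conj hφ hg
  calc finrank F (W H x) = finrank F ((W H x).map f) :=
        (LinearEquiv.finrank_eq (Submodule.equivMapOfInjective f hf _))
    _ ≤ _ := Submodule.finrank_mono hle

theorem exists_moving {x y φ : Fin n → F} (hφ : φ ∈ W H x) (h : φ ⬝ᵥ y ≠ 0) :
    ∃ g ∈ H, (g : Matrix (Fin n) (Fin n) F) *ᵥ y = x + y := by
  obtain ⟨_, g, hg, e⟩ := hφ ((φ ⬝ᵥ y)⁻¹)
  refine ⟨g, hg, ?_⟩
  rw [e, add_mulVec, one_mulVec, vecMulVec_mulVec]
  simp [h, add_comm]

theorem W_smul {c : F} (hc : c ≠ 0) (x : Fin n → F) : W H (c • x) = W H x := by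
  apply le_antisymm
  · intro φ hφ
    have := Full.smul_left hφ c⁻¹
    rwa [smul_smul, inv_mul_cancel₀ hc, one_smul] at this
  · intro φ hφ
    exact Full.smul_left hφ c

theorem finrank_ker_ev {x : Fin n → F} (hx : x ≠ 0) : finrank F (LinearMap.ker (ev x)) + 1 = n := by
  have h1 := LinearMap.finrank_range_add_finrank_ker (ev x)
  have h2 : LinearMap.range (ev x) = ⊤ := by
    rw [LinearMap.range_eq_top]
    refine LinearMap.surjective (fun h => hx ?_)
    ext i
    have := LinearMap.congr_fun h (Pi.single i 1)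
    rw [ev_apply, single_dotProduct, one_mul] at this
    exact this
  rw [h2, finrank_top, finrank_self, finrank_fin_fun] at h1
  omega

theorem finrank_inf_ker (U : Submodule F (Fin n → F)) (x : Fin n → F) :
    finrank F U ≤ finrank F (U ⊓ LinearMap.ker (ev x) : Submodule F (Fin n → F)) + 1 := by
  by_cases hx : x = 0
  · have : LinearMap.ker (ev x) = ⊤ := by
      rw [LinearMap.ker_eq_top]
      ext i
      simp [ev_apply, hx]
    rw [this, inf_top_eq]
    omega
  · have h1 := Submodule.finrank_sup_add_finrank_inf_eq U (LinearMap.ker (ev x))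
    have h2 := finrank_ker_ev hx
    have h3 : finrank F (U ⊔ LinearMap.ker (ev x) : Submodule F (Fin n → F)) ≤ n := by
      have := Submodule.finrank_le (U ⊔ LinearMap.ker (ev x))
      rwa [finrank_fin_fun] at this
    omega

theorem finrank_ker_inf {x y : Fin n → F} (hx : x ≠ 0) (hy : ∀ c : F, y ≠ c • x) :
    finrank F (LinearMap.ker (ev x) ⊓ LinearMap.ker (ev y) : Submodule F (Fin n → F)) + 2 ≤ n := by
  have h2 := finrank_ker_ev hx
  obtain ⟨ψ, h3, h4⟩ := exists_dot hx hy
  have hlt : (LinearMap.ker (ev x) ⊓ LinearMap.ker (ev y) : Submodule F (Fin n → F)) <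
      LinearMap.ker (ev x) := by
    refine lt_of_le_of_ne inf_le_left fun h => h4 ?_
    have : ψ ∈ (LinearMap.ker (ev x) ⊓ LinearMap.ker (ev y) : Submodule F (Fin n → F)) := by
      rw [h]; exact h3
    exact this.2
  have := Submodule.finrank_lt_finrank_of_lt hlt
  omega

/-- **Lemma M.** -/
theorem full_of_rank (hn : 3 ≤ n) (hb0 : b ≠ 0) (hb : n ≤ finrank F (W H b) + 2)
    (hirr : ∀ U : Submodule F (Fin n → F),
      (∀ g ∈ H, ∀ x ∈ U, (g : Matrix (Fin n) (Fin n) F) *ᵥ x ∈ U) → U = ⊥ ∨ U = ⊤) :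
    H = ⊤ := by
  classical
  have hWker : ∀ x : Fin n → F, W H x ≤ LinearMap.ker (ev x) := fun x φ hφ => dot_of_mem_W hφ
  let D : Submodule F (Fin n → F) :=
    { carrier := {x | n ≤ finrank F (W H x) + 2}
      zero_mem' := by
        change n ≤ finrank F (W H 0) + 2
        have : W H (0 : Fin n → F) = ⊤ := by
          rw [eq_top_iff]
          intro φ _ c
          exact has_zero_left _
        rw [this, finrank_top, finrank_fin_fun]
        omega
      smul_mem' := by
        intro c x hx
        change n ≤ finrank F (W H (c • x)) + 2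
        by_cases hc : c = 0
        · have : W H (c • x) = ⊤ := by
            rw [eq_top_iff, hc, zero_smul]
            intro φ _ c
            exact has_zero_left _
          rw [this, finrank_top, finrank_fin_fun]
          omega
        · rw [W_smul hc]
          exact hx
      add_mem' := by
        intro x y hx hy
        change n ≤ finrank F (W H (x + y)) + 2
        by_cases h1 : ∃ φ ∈ W H x, φ ⬝ᵥ y ≠ 0
        · obtain ⟨φ, hφ, h⟩ := h1
          obtain ⟨g, hg, e⟩ := exists_moving hφ h
          have := finrank_W_le_conj hg y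
          rw [e] at this
          exact le_trans hy (by omega)
        by_cases h2 : ∃ φ ∈ W H y, φ ⬝ᵥ x ≠ 0
        · obtain ⟨φ, hφ, h⟩ := h2
          obtain ⟨g, hg, e⟩ := exists_moving hφ h
          have := finrank_W_le_conj hg x
          rw [e, add_comm y x] at this
          exact le_trans hx (by omega)
        push Not at h1 h2
        by_cases hx0 : x = 0
        · rw [hx0, zero_add]; exact hy
        by_cases hdep : ∃ c : F, y = c • x
        · obtain ⟨c, rfl⟩ := hdep
          have : x + c • x = (1 + c) • x := by rw [add_smul, one_smul]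
          rw [this]
          by_cases hc : 1 + c = 0
          · have : W H ((1 + c) • x) = ⊤ := by
              rw [eq_top_iff, hc, zero_smul]
              intro φ _ c
              exact has_zero_left _
            rw [this, finrank_top, finrank_fin_fun]
            omega
          · rw [W_smul hc]
            exact hx
        · push Not at hdep
          have h3 := finrank_ker_inf hx0 hdep
          have h4 : W H x ≤ LinearMap.ker (ev x) ⊓ LinearMap.ker (ev y) :=
            le_inf (hWker x) h1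
          have h5 : W H y ≤ LinearMap.ker (ev x) ⊓ LinearMap.ker (ev y) :=
            le_inf h2 (hWker y)
          have hx' : n ≤ finrank F (W H x) + 2 := hx
          have hy' : n ≤ finrank F (W H y) + 2 := hy
          have h6 := Submodule.eq_of_le_of_finrank_le h4 (by omega)
          have h7 := Submodule.eq_of_le_of_finrank_le h5 (by omega)
          have h8 : W H x ≤ W H (x + y) := by
            intro φ hφ
            have : φ ∈ W H y := by rw [h7, ← h6]; exact hφ
            exact Full.add_left hφ this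
          have := Submodule.finrank_mono h8
          omega }
  have hD : D = ⊤ := by
    rcases hirr D (fun g hg x hx => le_trans (show n ≤ finrank F (W H x) + 2 from hx)
      (Nat.add_le_add_right (finrank_W_le_conj hg x) 2)) with h | h
    · exfalso
      have : b ∈ D := hb
      rw [h, Submodule.mem_bot] at this
      exact hb0 this
    · exact h
  have hall : ∀ x : Fin n → F, n ≤ finrank F (W H x) + 2 := fun x => by
    have : x ∈ D := by rw [hD]; trivial
    exact this
  by_contra hH
  have heq : ∀ x : Fin n → F, x ≠ 0 → finrank F (W H x) + 2 = n := by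
    intro x hx
    by_contra hne
    have h1 := hall x
    have h2 := finrank_ker_ev hx
    have h3 := Submodule.eq_of_le_of_finrank_le (hWker x) (by omega)
    apply hH
    refine full_of_point (b := x) (fun φ hφ => ?_) (fun U hU hinv => ?_)
    · have : φ ∈ W H x := by rw [h3]; exact hφ
      exact Full.has this
    · rcases hirr U hinv with h | h
      · rw [h, Submodule.mem_bot] at hU
        exact absurd hU hx
      · exact h
  have key : ∀ b c : Fin n → F, b ≠ 0 → c ≠ 0 → (∀ φ ∈ W H b, φ ⬝ᵥ c = 0) → W H c = W H b := by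
    intro b c hb hc h
    by_cases h1 : ∀ φ ∈ W H c, φ ⬝ᵥ b = 0
    · by_cases hdep : ∃ d : F, c = d • b
      · obtain ⟨d, rfl⟩ := hdep
        have hd : d ≠ 0 := fun h0 => hc (by rw [h0, zero_smul])
        exact W_smul hd b
      · push Not at hdep
        have h3 := finrank_ker_inf hb hdep
        have h4 : W H b ≤ LinearMap.ker (ev b) ⊓ LinearMap.ker (ev c) := le_inf (hWker b) h
        have h5 : W H c ≤ LinearMap.ker (ev b) ⊓ LinearMap.ker (ev c) := le_inf h1 (hWker c)
        have h6 := Submodule.eq_of_le_of_finrank_le h4 (by have := heq b hb; omega)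
        have h7 := Submodule.eq_of_le_of_finrank_le h5 (by have := heq c hc; omega)
        rw [h6, h7]
    · push Not at h1
      obtain ⟨ψ, hψ, hψb⟩ := h1
      have h2 : W H b ≤ W H c := fun χ hχ => Full.comm (Full.has hψ) hχ (h χ hχ) hψb
      have h3 := Submodule.eq_of_le_of_finrank_le h2 (by
        have := heq b hb; have := heq c hc; omega)
      exact h3.symm
  have hb2 := heq b hb0
  obtain ⟨φ, hφ, hφ0⟩ : ∃ φ ∈ W H b, φ ≠ 0 := by
    have : W H b ≠ ⊥ := by
      intro h
      rw [h, finrank_bot] at hb2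
      omega
    exact (Submodule.ne_bot_iff _).1 this
  obtain ⟨i, hi⟩ : ∃ i, φ i ≠ 0 := by
    by_contra hcon
    push Not at hcon
    exact hφ0 (funext hcon)
  set c : Fin n → F := Pi.single i 1 with hc
  have hφc : φ ⬝ᵥ c ≠ 0 := by
    rw [hc, dotProduct_single, mul_one]; exact hi
  have hc0 : c ≠ 0 := by
    intro h
    rw [h, dotProduct_zero] at hφc
    exact hφc rfl
  have h2 : (W H c ⊓ LinearMap.ker (ev b) : Submodule F (Fin n → F)) ≤ W H b ⊓ W H c :=
    le_inf (fun χ hχ => Full.comm (Full.has hφ) hχ.1 hχ.2 hφc) inf_le_left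
  have h3 := Submodule.finrank_mono h2
  have h4 := finrank_inf_ker (W H c) b
  have h5 := Submodule.finrank_sup_add_finrank_inf_eq (W H b) (W H c)
  have hc2 := heq c hc0
  have h6 : (W H b ⊔ W H c : Submodule F (Fin n → F)) < ⊤ := by
    rw [lt_top_iff_ne_top]
    intro h
    rw [h, finrank_top, finrank_fin_fun] at h5
    omega
  obtain ⟨f, hf0, hf⟩ := Submodule.exists_le_ker_of_lt_top _ h6
  set d : Fin n → F := fun j => f (Pi.single j 1) with hd
  have hfd : ∀ ψ : Fin n → F, f ψ = ψ ⬝ᵥ d := by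
    intro ψ
    conv_lhs => rw [pi_eq_sum_univ' ψ]
    rw [map_sum, dotProduct]
    refine Finset.sum_congr rfl fun j _ => ?_
    rw [map_smul, smul_eq_mul, hd]
  have hd0 : d ≠ 0 := by
    intro h
    apply hf0
    ext ψ
    simp [hfd, h]
  have h7 := key b d hb0 hd0 (fun ψ hψ => by
    rw [← hfd]; exact hf (Submodule.mem_sup_left hψ))
  have h8 := key c d hc0 hd0 (fun ψ hψ => by
    rw [← hfd]; exact hf (Submodule.mem_sup_right hψ))
  have h9 : φ ∈ W H c := by rw [← h8, h7]; exact hφ
  exact hφc (dot_of_mem_W h9)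

end Cfsg.Agent.H107.SLHas
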