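import Mathlib
import Cfsg.Agent.H107.SLHas

/-!
The companion matrix of `(X - 1)^n` as an element of `SL_n(F)`, conjugate to the Jordan block;
the filtration of the lower triangular matrices.
-/

set_option autoImplicit false

namespace Cfsg.Agent.H107.Comp

open Matrix

variable {n : ℕ} {F : Type*} [Field F]

/-- The standard basis vectors, indexed by natural numbers (zero from `n` on). -/
def e (n : ℕ) (F : Type*) [Field F] (k : ℕ) : Fin n → F := fun i => if (i : ℕ) = k then 1 else 0

theorem e_apply (k : ℕ) (i : Fin n) : e n F k i = if (i : ℕ) = k then 1 else 0 := rfl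

theorem e_eq_single {k : ℕ} (hk : k < n) : e n F k = Pi.single ⟨k, hk⟩ 1 := by
  ext i
  rw [e_apply, Pi.single_apply]
  simp [Fin.ext_iff]

theorem e_of_le {k : ℕ} (hk : n ≤ k) : e n F k = 0 := by
  ext i
  rw [e_apply, if_neg (by omega)]
  rfl

theorem e_val (i : Fin n) : e n F i = Pi.single i 1 := e_eq_single i.2

theorem dot_e {k : ℕ} (hk : k < n) (x : Fin n → F) : x ⬝ᵥ e n F k = x ⟨k, hk⟩ := by
  rw [e_eq_single hk, dotProduct_single, mul_one]

theorem e_dot {k : ℕ} (hk : k < n) (x : Fin n → F) : e n F k ⬝ᵥ x = x ⟨k, hk⟩ := by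
  rw [dotProduct_comm, dot_e hk]

theorem mulVec_e {k : ℕ} (hk : k < n) (A : Matrix (Fin n) (Fin n) F) (i : Fin n) :
    (A *ᵥ e n F k) i = A i ⟨k, hk⟩ := by
  rw [e_eq_single hk, mulVec_single_one]
  rfl

theorem mat_ext {A B : Matrix (Fin n) (Fin n) F}
    (h : ∀ k, k < n → A *ᵥ e n F k = B *ᵥ e n F k) : A = B := by
  ext i j
  have := congrFun (h j j.2) i
  rwa [mulVec_e j.2, mulVec_e j.2] at this

/-- regular unipotent matrices -/
def Reg (u : Matrix (Fin n) (Fin n) F) : Prop := IsNilpotent (u - 1) ∧ (u - 1) ^ (n - 1) ≠ 0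

/-- the nilpotent Jordan block -/
def N (n : ℕ) (F : Type*) [Field F] : Matrix (Fin n) (Fin n) F :=
  Matrix.of fun i j => if (i : ℕ) = (j : ℕ) + 1 then 1 else 0

theorem N_mulVec_e (k : ℕ) : N n F *ᵥ e n F k = e n F (k + 1) := by
  by_cases hk : k < n
  · ext i
    rw [mulVec_e hk]
    rfl
  · rw [e_of_le (by omega), e_of_le (by omega), mulVec_zero]

theorem N_pow_mulVec_e (m k : ℕ) : (N n F ^ m) *ᵥ e n F k = e n F (k + m) := by
  induction m generalizing k with
  | zero => simp
  | succ m ih => rw [pow_succ, ← mulVec_mulVec, N_mulVec_e, ih]; congr 1; omega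

theorem N_pow : N n F ^ n = 0 :=
  mat_ext fun k _ => by rw [N_pow_mulVec_e, e_of_le (by omega), zero_mulVec]

theorem reg_one_add_N (hn : 0 < n) : Reg (1 + N n F) := by
  unfold Reg
  rw [add_sub_cancel_left]
  refine ⟨⟨n, N_pow⟩, fun h => ?_⟩
  have := congrArg (· *ᵥ e n F 0) h
  simp only [N_pow_mulVec_e, zero_mulVec] at this
  have h2 := congrFun this ⟨n - 1, by omega⟩
  rw [e_apply, if_pos (by simp)] at h2
  exact one_ne_zero h2

/-- the filtration of lower triangular matrices -/
def Low (k : ℕ) (A : Matrix (Fin n) (Fin n) F) : Prop :=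
  ∀ i j : Fin n, (i : ℕ) < (j : ℕ) + k → A i j = 0

theorem Low.mono {k l : ℕ} (h : k ≤ l) {A : Matrix (Fin n) (Fin n) F} (hA : Low l A) : Low k A :=
  fun i j hij => hA i j (by omega)

theorem Low.add {k : ℕ} {A B : Matrix (Fin n) (Fin n) F} (hA : Low k A) (hB : Low k B) :
    Low k (A + B) := fun i j hij => by
  rw [Matrix.add_apply, hA i j hij, hB i j hij, add_zero]

theorem Low.sub {k : ℕ} {A B : Matrix (Fin n) (Fin n) F} (hA : Low k A) (hB : Low k B) :
    Low k (A - B) := fun i j hij => by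
  rw [Matrix.sub_apply, hA i j hij, hB i j hij, sub_zero]

theorem Low.neg {k : ℕ} {A : Matrix (Fin n) (Fin n) F} (hA : Low k A) :
    Low k (-A) := fun i j hij => by
  rw [Matrix.neg_apply, hA i j hij, neg_zero]

theorem Low.mul {k l : ℕ} {A B : Matrix (Fin n) (Fin n) F} (hA : Low k A) (hB : Low l B) :
    Low (k + l) (A * B) := fun i j hij => by
  rw [Matrix.mul_apply]
  refine Finset.sum_eq_zero fun m _ => ?_
  by_cases h : (i : ℕ) < (m : ℕ) + k
  · rw [hA i m h, zero_mul]
  · rw [hB m j (by omega), mul_zero]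

theorem low_zero (k : ℕ) : Low k (0 : Matrix (Fin n) (Fin n) F) := fun _ _ _ => rfl

theorem low_one : Low 0 (1 : Matrix (Fin n) (Fin n) F) := fun i j hij => by
  rw [Matrix.one_apply_ne]
  intro h
  rw [h] at hij
  omega

theorem Low.pow {k : ℕ} {A : Matrix (Fin n) (Fin n) F} (hA : Low k A) (m : ℕ) :
    Low (m * k) (A ^ m) := by
  induction m with
  | zero => rw [zero_mul, pow_zero]; exact low_one
  | succ m ih => rw [pow_succ, Nat.succ_mul]; exact ih.mul hA

theorem Low.eq_zero {k : ℕ} (hk : n ≤ k) {A : Matrix (Fin n) (Fin n) F} (hA : Low k A) : A = 0 := by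
  ext i j
  exact hA i j (by omega)

theorem det_low {A : Matrix (Fin n) (Fin n) F} (hA : Low 0 A) (h1 : ∀ i, A i i = 1) :
    A.det = 1 := by
  rw [det_of_isLowerTriangular A (fun i j hij => hA i j ?_)]
  · simp [h1]
  · have : i < j := hij
    exact this

theorem det_up {A : Matrix (Fin n) (Fin n) F} (hA : ∀ i j : Fin n, j < i → A i j = 0)
    (h1 : ∀ i, A i i = 1) : A.det = 1 := by
  rw [det_of_isUpperTriangular (M := A) (fun i j hij => hA i j hij)]
  simp [h1]

theorem low_N : Low 1 (N n F) := fun i j hij => by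
  change (if (i : ℕ) = (j : ℕ) + 1 then (1 : F) else 0) = 0
  rw [if_neg (by omega)]

/-- the Jordan block in `SL_n(F)` -/
def J (n : ℕ) (F : Type*) [Field F] : Matrix.SpecialLinearGroup (Fin n) F :=
  ⟨1 + N n F, det_low (low_one.add (low_N.mono (by omega))) fun i => by
    rw [Matrix.add_apply, Matrix.one_apply_eq, low_N i i (by omega), add_zero]⟩

theorem J_coe : (J n F : Matrix (Fin n) (Fin n) F) = 1 + N n F := rfl

theorem J_mulVec_e (k : ℕ) :
    (J n F : Matrix (Fin n) (Fin n) F) *ᵥ e n F k = e n F k + e n F (k + 1) := by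
  rw [J_coe, add_mulVec, one_mulVec, N_mulVec_e]

/-- the matrix with columns `A^k v` -/
def cyc (A : Matrix (Fin n) (Fin n) F) (v : Fin n → F) : Matrix (Fin n) (Fin n) F :=
  Matrix.of fun i k => ((A ^ (k : ℕ)) *ᵥ v) i

theorem cyc_mulVec_e (A : Matrix (Fin n) (Fin n) F) (v : Fin n → F) {k : ℕ} (hk : k < n) :
    cyc A v *ᵥ e n F k = (A ^ k) *ᵥ v := by
  ext i
  rw [mulVec_e hk]
  rfl

/-- A regular unipotent element with a cyclic basis of determinant one is `SL_n`-conjugate to
the Jordan block. -/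
theorem exists_conj_J {u : Matrix.SpecialLinearGroup (Fin n) F} {v : Fin n → F}
    (hu : ((u : Matrix (Fin n) (Fin n) F) - 1) ^ n = 0)
    (hd : (cyc ((u : Matrix (Fin n) (Fin n) F) - 1) v).det = 1) :
    ∃ g : Matrix.SpecialLinearGroup (Fin n) F, u = g * J n F * g⁻¹ := by
  obtain ⟨P, hP⟩ : ∃ P : Matrix.SpecialLinearGroup (Fin n) F,
    (P : Matrix (Fin n) (Fin n) F) = cyc ((u : Matrix (Fin n) (Fin n) F) - 1) v := ⟨⟨_, hd⟩, rfl⟩
  refine ⟨P, ?_⟩
  rw [eq_mul_inv_iff_mul_eq]
  apply Subtype.ext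
  rw [Matrix.SpecialLinearGroup.coe_mul, Matrix.SpecialLinearGroup.coe_mul]
  refine mat_ext fun k hk => ?_
  set A := (u : Matrix (Fin n) (Fin n) F) - 1 with hA
  have hu' : (u : Matrix (Fin n) (Fin n) F) = 1 + A := by rw [hA]; abel
  rw [hP, ← mulVec_mulVec, ← mulVec_mulVec, J_mulVec_e, mulVec_add, cyc_mulVec_e _ _ hk, hu',
    add_mulVec, one_mulVec, mulVec_mulVec, ← pow_succ']
  congr 1
  by_cases h : k + 1 < n
  · rw [cyc_mulVec_e _ _ h]
  · rw [e_of_le (by omega), mulVec_zero, show k + 1 = n by omega, hu, zero_mulVec]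

/-- All lower unitriangular matrices with ones below the diagonal are conjugate to `J`. -/
theorem exists_conj_J_of_low {u : Matrix.SpecialLinearGroup (Fin n) F}
    (hu : Low 1 ((u : Matrix (Fin n) (Fin n) F) - 1))
    (h1 : ∀ i j : Fin n, (i : ℕ) = (j : ℕ) + 1 → (u : Matrix (Fin n) (Fin n) F) i j = 1) :
    ∃ g : Matrix.SpecialLinearGroup (Fin n) F, u = g * J n F * g⁻¹ := by
  rcases Nat.eq_zero_or_pos n with rfl | hn
  · exact ⟨1, Subsingleton.elim _ _⟩
  set A := (u : Matrix (Fin n) (Fin n) F) - 1 with hA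
  have hAn : A ^ n = 0 := (hu.pow n).eq_zero (by omega)
  refine exists_conj_J (v := e n F 0) hAn ?_
  have key : ∀ k : ℕ, k < n → (∀ i : Fin n, (i : ℕ) < k → ((A ^ k) *ᵥ e n F 0) i = 0) ∧
      (∀ i : Fin n, (i : ℕ) = k → ((A ^ k) *ᵥ e n F 0) i = 1) := by
    intro k
    induction k with
    | zero =>
      intro _
      refine ⟨fun i hi => absurd hi (by omega), fun i hi => ?_⟩
      rw [pow_zero, one_mulVec, e_apply, if_pos hi]
    | succ k ih =>
      intro hk
      obtain ⟨ih1, ih2⟩ := ih (by omega)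
      rw [pow_succ', ← mulVec_mulVec]
      constructor
      · intro i hi
        rw [mulVec, dotProduct]
        refine Finset.sum_eq_zero fun j _ => ?_
        by_cases hj : (j : ℕ) < k
        · rw [ih1 j hj, mul_zero]
        · rw [hu i j (by omega), zero_mul]
      · intro i hi
        rw [mulVec, dotProduct, Finset.sum_eq_single ⟨k, by omega⟩]
        · rw [ih2 _ rfl, mul_one]
          have h2 := h1 i ⟨k, by omega⟩ hi
          rw [← h2, hA, Matrix.sub_apply, Matrix.one_apply_ne, sub_zero]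
          intro h
          rw [h] at hi
          simp at hi
        · intro j _ hj
          by_cases hj' : (j : ℕ) < k
          · rw [ih1 j hj', mul_zero]
          · rw [hu i j (by
              have : (j : ℕ) ≠ k := fun h => hj (Fin.ext h)
              omega), zero_mul]
        · intro h
          exact absurd (Finset.mem_univ _) h
  refine det_low (fun i j hij => ?_) (fun i => ?_)
  · exact (key j j.2).1 i (by omega)
  · exact (key i i.2).2 i rfl

/-- The companion matrix of `(X-1)^n`, up to the choice of a conjugate. -/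
theorem exists_comp (n : ℕ) (F : Type*) [Field F] :
    ∃ w b : Matrix.SpecialLinearGroup (Fin n) F, w = b * J n F * b⁻¹ ∧
      ∀ k, k + 1 < n → (w : Matrix (Fin n) (Fin n) F) *ᵥ e n F k = e n F (k + 1) := by
  rcases Nat.eq_zero_or_pos n with rfl | hn
  · exact ⟨1, 1, Subsingleton.elim _ _, fun k hk => absurd hk (by omega)⟩
  set A : Matrix (Fin n) (Fin n) F := (J n F : Matrix (Fin n) (Fin n) F) with hA
  have key : ∀ k : ℕ, k < n → (∀ i : Fin n, k < (i : ℕ) → ((A ^ k) *ᵥ e n F 0) i = 0) ∧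
      (∀ i : Fin n, (i : ℕ) = k → ((A ^ k) *ᵥ e n F 0) i = 1) := by
    intro k
    induction k with
    | zero =>
      intro _
      refine ⟨fun i hi => ?_, fun i hi => ?_⟩
      · rw [pow_zero, one_mulVec, e_apply, if_neg (by omega)]
      · rw [pow_zero, one_mulVec, e_apply, if_pos hi]
    | succ k ih =>
      intro hk
      obtain ⟨ih1, ih2⟩ := ih (by omega)
      rw [pow_succ', ← mulVec_mulVec, hA, J_coe, add_mulVec, one_mulVec, ← J_coe, ← hA]
      have hN : ∀ (x : Fin n → F) (i : Fin n) (j : Fin n), (i : ℕ) = (j : ℕ) + 1 →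
          (N n F *ᵥ x) i = x j := by
        intro x i j hij
        rw [mulVec, dotProduct, Finset.sum_eq_single j]
        · change (if (i : ℕ) = (j : ℕ) + 1 then (1 : F) else 0) * x j = x j
          rw [if_pos hij, one_mul]
        · intro l _ hl
          change (if (i : ℕ) = (l : ℕ) + 1 then (1 : F) else 0) * x l = 0
          rw [if_neg, zero_mul]
          intro h
          exact hl (Fin.ext (by omega))
        · intro h
          exact absurd (Finset.mem_univ _) h
      constructor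
      · intro i hi
        rw [Pi.add_apply, ih1 i (by omega), zero_add,
          hN _ i ⟨(i : ℕ) - 1, by omega⟩ (by simp; omega)]
        exact ih1 _ (by simp; omega)
      · intro i hi
        rw [Pi.add_apply, ih1 i (by omega), zero_add,
          hN _ i ⟨(i : ℕ) - 1, by omega⟩ (by simp; omega)]
        exact ih2 _ (by simp; omega)
  have hdet : (cyc A (e n F 0)).det = 1 := by
    refine det_up (fun i j hij => ?_) (fun i => ?_)
    · exact (key j j.2).1 i (by simpa using hij)
    · exact (key i i.2).2 i rfl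
  set B : Matrix.SpecialLinearGroup (Fin n) F := ⟨cyc A (e n F 0), hdet⟩ with hB
  have hBc : (B : Matrix (Fin n) (Fin n) F) = cyc A (e n F 0) := rfl
  refine ⟨B⁻¹ * J n F * B, B⁻¹, by rw [inv_inv], fun k hk => ?_⟩
  rw [Matrix.SpecialLinearGroup.coe_mul, Matrix.SpecialLinearGroup.coe_mul, ← mulVec_mulVec,
    ← mulVec_mulVec, hBc, cyc_mulVec_e _ _ (by omega), ← hA, mulVec_mulVec _ A (A ^ k),
    ← pow_succ', ← cyc_mulVec_e _ _ hk, ← hBc, mulVec_mulVec, SLHas.inv_mul_coe, one_mulVec]

theorem Reg.conj {u : Matrix.SpecialLinearGroup (Fin n) F} (hu : Reg (u : Matrix (Fin n) (Fin n) F))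
    (g : Matrix.SpecialLinearGroup (Fin n) F) :
    Reg ((g * u * g⁻¹ : Matrix.SpecialLinearGroup (Fin n) F) : Matrix (Fin n) (Fin n) F) := by
  have h1 : ((g * u * g⁻¹ : Matrix.SpecialLinearGroup (Fin n) F) : Matrix (Fin n) (Fin n) F) - 1 =
      g * ((u : Matrix (Fin n) (Fin n) F) - 1) *
        ((g⁻¹ : Matrix.SpecialLinearGroup (Fin n) F) : Matrix (Fin n) (Fin n) F) := by
    rw [Matrix.SpecialLinearGroup.coe_mul, Matrix.SpecialLinearGroup.coe_mul, Matrix.mul_sub,
      Matrix.sub_mul, Matrix.mul_one, SLHas.mul_inv_coe]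
  have h2 : ∀ (A : Matrix (Fin n) (Fin n) F) (m : ℕ), (g * A *
        ((g⁻¹ : Matrix.SpecialLinearGroup (Fin n) F) : Matrix (Fin n) (Fin n) F)) ^ m =
        g * A ^ m *
        ((g⁻¹ : Matrix.SpecialLinearGroup (Fin n) F) : Matrix (Fin n) (Fin n) F) := by
    intro A m
    induction m with
    | zero => rw [pow_zero, pow_zero, Matrix.mul_one, SLHas.mul_inv_coe]
    | succ m ih =>
      rw [pow_succ, ih, pow_succ]
      simp only [Matrix.mul_assoc]
      rw [← Matrix.mul_assoc _ (g : Matrix (Fin n) (Fin n) F), SLHas.inv_mul_coe, Matrix.one_mul]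
  obtain ⟨⟨m, hm⟩, hne⟩ := hu
  unfold Reg
  rw [h1]
  refine ⟨⟨m, ?_⟩, ?_⟩
  · rw [h2, hm, Matrix.mul_zero, Matrix.zero_mul]
  · rw [h2]
    intro h
    apply hne
    have h3 := congrArg (fun A => ((g⁻¹ : Matrix.SpecialLinearGroup (Fin n) F) :
      Matrix (Fin n) (Fin n) F) * A * (g : Matrix (Fin n) (Fin n) F)) h
    simp only [Matrix.mul_zero, Matrix.zero_mul] at h3
    rw [← h3]
    simp only [Matrix.mul_assoc]
    rw [SLHas.inv_mul_coe, Matrix.mul_one, ← Matrix.mul_assoc, SLHas.inv_mul_coe, Matrix.one_mul]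

end Cfsg.Agent.H107.Comp
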