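import Mathlib
import Cfsg.Agent.H107.Comp

/-!
Over a field of prime order, a companion matrix of `(X-1)^n` and a corner transvection generate
`SL_n`.
-/

set_option autoImplicit false

namespace Cfsg.Agent.H107.Corner

open Matrix SLHas Cfsg.Agent.H107.Comp

variable {n : ℕ} {F : Type*} [Field F]
variable {H : Subgroup (Matrix.SpecialLinearGroup (Fin n) F)} {a b φ ψ : Fin n → F}

theorem full_of_has [Fintype F] (hp : (Fintype.card F).Prime) {τ : F} (hτ : τ ≠ 0)
    (h : Has H a (τ • φ)) : Full H a φ := by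
  let S : AddSubgroup F :=
    { carrier := {c | Has H a (c • φ)}
      add_mem' := fun {x y} hx hy => by
        change Has H a ((x + y) • φ)
        rw [add_smul]; exact Has.add_right hx hy
      zero_mem' := by
        change Has H a ((0 : F) • φ)
        rw [zero_smul]; exact has_zero_right a
      neg_mem' := fun {x} hx => by
        change Has H a ((-x) • φ)
        rw [neg_smul]; exact Has.neg hx }
  have : Fact (Nat.card F).Prime := ⟨by rw [Nat.card_eq_fintype_card]; exact hp⟩
  rcases AddSubgroup.eq_bot_or_eq_top_of_prime_card S with h1 | h1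
  · exfalso
    have : τ ∈ S := h
    rw [h1, AddSubgroup.mem_bot] at this
    exact hτ this
  · intro c
    have : c ∈ S := by rw [h1]; trivial
    exact this

/-- the shift property -/
def Shift (w : Matrix.SpecialLinearGroup (Fin n) F) : Prop :=
  ∀ k, k + 1 < n → (w : Matrix (Fin n) (Fin n) F) *ᵥ e n F k = e n F (k + 1)

variable {w : Matrix.SpecialLinearGroup (Fin n) F}

theorem Shift.vecMul (hw : Shift w) (x : Fin n → F) {k : ℕ} (hk : k + 1 < n) :
    (x ᵥ* (w : Matrix (Fin n) (Fin n) F)) ⟨k, by omega⟩ = x ⟨k + 1, hk⟩ := by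
  rw [← dot_e (show k < n by omega) (x ᵥ* (w : Matrix (Fin n) (Fin n) F)), ← dotProduct_mulVec,
    hw k hk, dot_e hk]

theorem Shift.pow_mulVec (hw : Shift w) (j k : ℕ) (h : k + j < n) :
    ((w : Matrix (Fin n) (Fin n) F) ^ j) *ᵥ e n F k = e n F (k + j) := by
  induction j with
  | zero => simp
  | succ j ih =>
    rw [pow_succ', ← mulVec_mulVec, ih (by omega), hw _ (by omega)]
    rfl

theorem Shift.vecMul_pow (hw : Shift w) (x : Fin n → F) (j k : ℕ) (h : k + j < n) :
    (x ᵥ* ((w : Matrix (Fin n) (Fin n) F) ^ j)) ⟨k, by omega⟩ = x ⟨k + j, h⟩ := by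
  rw [← dot_e (show k < n by omega) (x ᵥ* ((w : Matrix (Fin n) (Fin n) F) ^ j)),
    ← dotProduct_mulVec, hw.pow_mulVec j k h, dot_e h]

theorem conj_inv_pow (h : Full H a φ) (hw : w ∈ H) (j : ℕ)
    (hb : ((w : Matrix (Fin n) (Fin n) F) ^ j) *ᵥ b = a) :
    Full H b (φ ᵥ* ((w : Matrix (Fin n) (Fin n) F) ^ j)) := by
  have h1 := h.conj (H.inv_mem (H.pow_mem hw j))
  rw [inv_inv, Matrix.SpecialLinearGroup.coe_pow, ← hb, mulVec_mulVec,
    ← Matrix.SpecialLinearGroup.coe_pow, inv_mul_coe, one_mulVec] at h1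
  exact h1

theorem span_of_shift (hw : Shift w) (U : Submodule F (Fin n → F)) (h0 : e n F 0 ∈ U)
    (hU : ∀ x ∈ U, (w : Matrix (Fin n) (Fin n) F) *ᵥ x ∈ U) : U = ⊤ := by
  have h1 : ∀ k, k < n → e n F k ∈ U := by
    intro k
    induction k with
    | zero => exact fun _ => h0
    | succ k ih => intro hk; rw [← hw k hk]; exact hU _ (ih (by omega))
  rw [eq_top_iff]
  intro x _
  rw [pi_eq_sum_univ' x]
  refine Submodule.sum_mem _ fun i _ => Submodule.smul_mem _ _ ?_
  have := h1 i i.2
  rwa [e_val] at this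

/-- A companion matrix and the full lower left corner root subgroup generate `SL_n(F)`. -/
theorem top_of_corner (hn : 2 ≤ n) (hw : Shift w) (hwH : w ∈ H)
    (h : Full H (e n F (n - 1)) (e n F 0)) : H = ⊤ := by
  set ψ : ℕ → Fin n → F := fun j => e n F 0 ᵥ* ((w : Matrix (Fin n) (Fin n) F) ^ j) with hψ
  have hS : ∀ j, j ≤ n - 1 → Full H (e n F (n - 1 - j)) (ψ j) := by
    intro j hj
    refine conj_inv_pow h hwH j ?_
    rw [hw.pow_mulVec _ _ (by omega)]
    congr 1
    omega
  have h0 : ∀ j k (hjk : k + j < n), 1 ≤ j → ψ j ⟨k, by omega⟩ = 0 := by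
    intro j k hjk hj
    simp only [hψ]
    rw [hw.vecMul_pow _ _ _ hjk, e_apply, if_neg (by simp; omega)]
  have h1 : ∀ j (hj : j < n), ψ (j + 1) ⟨n - (j + 1), by omega⟩ = ψ 1 ⟨n - 1, by omega⟩ := by
    intro j hj
    have e1 : ψ (j + 1) = ψ 1 ᵥ* ((w : Matrix (Fin n) (Fin n) F) ^ j) := by
      simp only [hψ]
      rw [vecMul_vecMul, pow_add, pow_one, ← pow_succ, ← pow_succ']
    rw [e1, hw.vecMul_pow _ _ _ (show n - (j + 1) + j < n by omega)]
    congr 1
    apply Fin.ext
    simp
    omega
  have hc : ψ 1 ⟨n - 1, by omega⟩ ≠ 0 := by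
    intro h2
    have h3 : ψ 1 = 0 := by
      ext i
      by_cases hi : (i : ℕ) + 1 < n
      · exact h0 1 i hi le_rfl
      · have : i = ⟨n - 1, by omega⟩ := Fin.ext (by simp; omega)
        rw [this, h2]; rfl
    have h4 : e n F 0 = 0 := by
      calc e n F 0 = (ψ 1) ᵥ*
          ((w⁻¹ : Matrix.SpecialLinearGroup (Fin n) F) : Matrix (Fin n) (Fin n) F) := by
            simp only [hψ]
            rw [pow_one, vecMul_vecMul, mul_inv_coe, vecMul_one]
        _ = 0 := by rw [h3, zero_vecMul]
    have h5 := congrFun h4 ⟨0, by omega⟩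
    rw [e_apply, if_pos rfl] at h5
    exact one_ne_zero h5
  -- `ψ j ∈ W (e 0)`
  have hW : ∀ m, m + 1 ≤ n - 1 → Full H (e n F 0) (ψ (n - 1 - m)) := by
    intro m
    induction m with
    | zero =>
      intro _
      have := hS (n - 1) le_rfl
      rwa [Nat.sub_self] at this
    | succ m ih =>
      intro hm
      have h2 := ih (by omega)
      have h3 := hS (n - 1 - (m + 1)) (by omega)
      refine Full.comm h2.has h3 ?_ ?_
      · rw [dot_e (by omega)]
        exact h0 _ _ (by omega) (by omega)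
      · rw [dot_e (by omega)]
        have h4 := h1 (n - 1 - m - 1) (by omega)
        rw [← h4] at hc
        convert hc using 2
        · congr 1
          omega
        · apply Fin.ext
          simp
          omega
  have hall : ∀ m, m ≤ n - 1 → ∀ φ : Fin n → F, (∀ k : Fin n, (k : ℕ) < n - m → φ k = 0) →
      Full H (e n F 0) φ := by
    intro m
    induction m with
    | zero =>
      intro _ φ hφ
      have : φ = 0 := funext fun k => hφ k (by omega)
      rw [this]
      exact full_zero_right _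
    | succ m ih =>
      intro hm φ hφ
      set c := ψ (m + 1) ⟨n - (m + 1), by omega⟩ with hcdef
      have hc' : c ≠ 0 := by rw [hcdef, h1 m (by omega)]; exact hc
      set d := φ ⟨n - (m + 1), by omega⟩ with hd
      have h2 := ih (by omega) (φ - (d * c⁻¹) • ψ (m + 1)) (by
        intro k hk
        rw [Pi.sub_apply, Pi.smul_apply, smul_eq_mul]
        by_cases hk' : (k : ℕ) < n - (m + 1)
        · rw [hφ k hk', h0 (m + 1) k (by omega) (by omega), mul_zero, sub_zero]
        · have : k = ⟨n - (m + 1), by omega⟩ := Fin.ext (by simp; omega)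
          rw [this, ← hd, ← hcdef, mul_assoc, inv_mul_cancel₀ hc', mul_one, sub_self])
      have h3 := hW (n - 1 - (m + 1)) (by omega)
      rw [show n - 1 - (n - 1 - (m + 1)) = m + 1 by omega] at h3
      have h4 := h2.add_right (h3.smul_right (d * c⁻¹))
      rwa [sub_add_cancel] at h4
  refine full_of_point (b := e n F 0) (fun φ hφ => ?_) (fun U hU hinv => ?_)
  · refine (hall (n - 1) le_rfl φ fun k hk => ?_).has
    rw [dot_e (show 0 < n by omega)] at hφ
    have : k = ⟨0, by omega⟩ := Fin.ext (by simp; omega)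
    rw [this, hφ]
  · exact span_of_shift hw U hU (fun x hx => hinv w hwH x hx)

end Cfsg.Agent.H107.Corner
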