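import Mathlib
import Cfsg.Agent.H107.Corner

/-!
A subgroup of `SL_n(F)`, `n ≥ 3`, containing the elementary matrices with entry `1` and one with a
generator of the multiplicative group as entry is everything.
-/

set_option autoImplicit false

namespace Cfsg.Agent.H107.RingClo

open Matrix SLHas

variable {n : ℕ} {F : Type*} [Field F]
variable {H : Subgroup (Matrix.SpecialLinearGroup (Fin n) F)}

/-- `x_{ij}(c) ∈ H` -/
def HasE (H : Subgroup (Matrix.SpecialLinearGroup (Fin n) F)) (i j : Fin n) (c : F) : Prop :=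
  Has H (Pi.single i 1) (c • Pi.single j 1)

theorem HasE.mul {i j k : Fin n} (hik : i ≠ k) (hij : i ≠ j) {c d : F}
    (h1 : HasE H i j c) (h2 : HasE H j k d) : HasE H i k (c * d) := by
  have h3 := Has.comm h1 h2 (by
    rw [smul_dotProduct, dotProduct_single, Pi.single_eq_of_ne hik]; simp)
  rw [smul_dotProduct, dotProduct_single, Pi.single_eq_same, mul_one, smul_eq_mul, mul_one,
    smul_smul] at h3
  exact h3

theorem HasE.add {i j : Fin n} {c d : F} (h1 : HasE H i j c) (h2 : HasE H i j d) :
    HasE H i j (c + d) := by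
  unfold HasE
  rw [add_smul]
  exact Has.add_right h1 h2

theorem top_of_hasE (h : ∀ i j : Fin n, i ≠ j → ∀ c, HasE H i j c) : H = ⊤ := by
  rw [eq_top_iff, ← LieClassical.SLGen.closure_transvections, Subgroup.closure_le]
  rintro A ⟨i, j, hij, c, rfl⟩
  obtain ⟨_, g, hg, e⟩ := h i j hij c
  have : g = Matrix.SpecialLinearGroup.transvection hij c := by
    apply Subtype.ext
    rw [e]
    change _ = (1 : Matrix (Fin n) (Fin n) F) + single i j c
    congr 1
    ext k l
    simp only [vecMulVec_apply, single_apply, Pi.single_apply, Pi.smul_apply]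
    rcases eq_or_ne i k with rfl | h1 <;> rcases eq_or_ne j l with rfl | h2
    · simp
    · simp [h2, h2.symm]
    · simp [h1, h1.symm]
    · simp [h1, h1.symm, h2, h2.symm]
  rw [← this]
  exact hg

theorem exists_third (hn : 3 ≤ n) (i j : Fin n) : ∃ k : Fin n, k ≠ i ∧ k ≠ j := by
  by_contra hcon
  push Not at hcon
  have h1 : (Finset.univ : Finset (Fin n)) ⊆ {i, j} := by
    intro k _
    rw [Finset.mem_insert, Finset.mem_singleton]
    by_cases hk : k = i
    · exact Or.inl hk
    · exact Or.inr (hcon k hk)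
  have h2 := Finset.card_le_card h1
  rw [Finset.card_univ, Fintype.card_fin] at h2
  have h3 := Finset.card_le_two (a := i) (b := j)
  omega

theorem top_of_gen (hn : 3 ≤ n) (h1 : ∀ i j : Fin n, i ≠ j → HasE H i j 1) {α : F}
    (hα : ∀ x : F, x ≠ 0 → ∃ k : ℕ, x = α ^ k) {i₀ j₀ : Fin n} (hij : i₀ ≠ j₀)
    (h2 : HasE H i₀ j₀ α) : H = ⊤ := by
  have hrow : ∀ i, i ≠ j₀ → HasE H i j₀ α := by
    intro i hi
    by_cases hi' : i = i₀
    · rw [hi']; exact h2
    · have := (h1 i i₀ hi').mul hi hi' h2
      rwa [one_mul] at this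
  have hne : ∀ i j, i ≠ j₀ → i ≠ j → HasE H i j α := by
    intro i j hi hij'
    by_cases hj : j = j₀
    · rw [hj]; exact hrow i hi
    · have := (hrow i hi).mul hij' hi (h1 j₀ j (Ne.symm hj))
      rwa [mul_one] at this
  have hall : ∀ i j, i ≠ j → HasE H i j α := by
    intro i j hij'
    by_cases hi : i = j₀
    · obtain ⟨k, hk1, hk2⟩ := exists_third hn i j
      have := (h1 i k hk1.symm).mul hij' hk1.symm (hne k j (by rw [← hi]; exact hk1) hk2)
      rwa [one_mul] at this
    · exact hne i j hi hij'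
  have hpow : ∀ m : ℕ, ∀ i j, i ≠ j → HasE H i j (α ^ m) := by
    intro m
    induction m with
    | zero => intro i j hij'; rw [pow_zero]; exact h1 i j hij'
    | succ m ih =>
      intro i j hij'
      obtain ⟨k, hk1, hk2⟩ := exists_third hn i j
      rw [pow_succ]
      exact (ih i k hk1.symm).mul hij' hk1.symm (hall k j hk2)
  refine top_of_hasE fun i j hij' c => ?_
  by_cases hc : c = 0
  · rw [hc]
    unfold HasE
    rw [zero_smul]
    exact has_zero_right _
  · obtain ⟨m, rfl⟩ := hα c hc
    exact hpow m i j hij'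

end Cfsg.Agent.H107.RingClo
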