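import Mathlib
import Cfsg.Agent.H107.RingClo

/-!
Passing from the prime field to `F`; powers of a generator of the multiplicative group.
-/

set_option autoImplicit false

namespace Cfsg.Agent.H107.Prime

open Matrix SLHas RingClo Corner Cfsg.Agent.H107.Comp

variable {n : ℕ} {F : Type*} [Field F]

theorem hasE_iff {H : Subgroup (Matrix.SpecialLinearGroup (Fin n) F)} {i j : Fin n} (hij : i ≠ j)
    {c : F} : HasE H i j c ↔ Matrix.SpecialLinearGroup.transvection hij c ∈ H := by
  have key : ((Matrix.SpecialLinearGroup.transvection hij c :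
      Matrix.SpecialLinearGroup (Fin n) F) : Matrix (Fin n) (Fin n) F) =
      1 + vecMulVec (Pi.single i 1) (c • Pi.single j 1) := by
    change (1 : Matrix (Fin n) (Fin n) F) + single i j c = _
    congr 1
    ext k l
    simp only [vecMulVec_apply, single_apply, Pi.single_apply, Pi.smul_apply]
    rcases eq_or_ne i k with rfl | h1 <;> rcases eq_or_ne j l with rfl | h2
    · simp
    · simp [h2, h2.symm]
    · simp [h1, h1.symm]
    · simp [h1, h1.symm, h2, h2.symm]
  constructor
  · rintro ⟨_, g, hg, e⟩
    have : g = Matrix.SpecialLinearGroup.transvection hij c := by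
      apply Subtype.ext
      rw [e, key]
    rw [← this]
    exact hg
  · intro h
    refine ⟨?_, _, h, key⟩
    rw [smul_dotProduct, dotProduct_single, Pi.single_eq_of_ne hij]
    simp

theorem map_transvection {K : Type*} [Field K] (f : K →+* F) {i j : Fin n} (hij : i ≠ j) (c : K) :
    Matrix.SpecialLinearGroup.map f (Matrix.SpecialLinearGroup.transvection hij c) =
      Matrix.SpecialLinearGroup.transvection hij (f c) := by
  apply Subtype.ext
  change ((1 : Matrix (Fin n) (Fin n) K) + single i j c).map f =
    (1 : Matrix (Fin n) (Fin n) F) + single i j (f c)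
  rw [Matrix.map_add _ (map_add f), Matrix.map_one _ (map_zero f) (map_one f)]
  congr 1
  ext k l
  simp only [Matrix.map_apply, single_apply]
  split_ifs <;> simp

theorem map_J {K : Type*} [Field K] (f : K →+* F) :
    Matrix.SpecialLinearGroup.map f (J n K) = J n F := by
  apply Subtype.ext
  change ((1 : Matrix (Fin n) (Fin n) K) + N n K).map f = (1 : Matrix (Fin n) (Fin n) F) + N n F
  rw [Matrix.map_add _ (map_add f), Matrix.map_one _ (map_zero f) (map_one f)]
  congr 1
  ext k l
  simp only [Matrix.map_apply, N, Matrix.of_apply]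
  split_ifs <;> simp

theorem exists_gen (F : Type*) [Field F] [Finite F] :
    ∃ α : F, α ≠ 0 ∧ ∀ x : F, x ≠ 0 → ∃ k : ℕ, x = α ^ k := by
  obtain ⟨g, hg⟩ := IsCyclic.exists_generator (α := Fˣ)
  refine ⟨g, g.ne_zero, fun x hx => ?_⟩
  have h1 := hg (Units.mk0 x hx)
  rw [← mem_powers_iff_mem_zpowers] at h1
  obtain ⟨k, hk⟩ := h1
  refine ⟨k, ?_⟩
  have h2 := congrArg Units.val hk
  simpa using h2.symm

/-- The image of `SL_n` of the prime field lies in `H` as soon as the companion matrix and a
corner transvection do. -/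
theorem map_mem {p : ℕ} [Fact p.Prime] (f : ZMod p →+* F) (hn : 2 ≤ n)
    {H : Subgroup (Matrix.SpecialLinearGroup (Fin n) F)}
    {w : Matrix.SpecialLinearGroup (Fin n) (ZMod p)} (hw : Shift w)
    (hwH : Matrix.SpecialLinearGroup.map f w ∈ H)
    (h : Has H (e n F (n - 1)) (e n F 0)) (g : Matrix.SpecialLinearGroup (Fin n) (ZMod p)) :
    Matrix.SpecialLinearGroup.map f g ∈ H := by
  have h1 : H.comap (Matrix.SpecialLinearGroup.map f) = ⊤ := by
    refine top_of_corner hn hw hwH ?_
    refine full_of_has (by rw [ZMod.card]; exact Fact.out) one_ne_zero ?_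
    have h2 : HasE H ⟨n - 1, by omega⟩ ⟨0, by omega⟩ (1 : F) := by
      unfold HasE
      rw [one_smul, ← e_eq_single, ← e_eq_single]
      exact h
    have hne : (⟨n - 1, by omega⟩ : Fin n) ≠ ⟨0, by omega⟩ := by
      intro h; rw [Fin.mk.injEq] at h; omega
    rw [hasE_iff hne] at h2
    have h3 : HasE (H.comap (Matrix.SpecialLinearGroup.map f)) ⟨n - 1, by omega⟩ ⟨0, by omega⟩
        (1 : ZMod p) := by
      rw [hasE_iff hne, Subgroup.mem_comap, map_transvection, map_one]
      exact h2
    unfold HasE at h3
    rw [← e_eq_single, ← e_eq_single] at h3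
    exact h3
  have : g ∈ H.comap (Matrix.SpecialLinearGroup.map f) := by rw [h1]; trivial
  exact this

end Cfsg.Agent.H107.Prime
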