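import Mathlib
import Cfsg.Agent.H107.Prime

/-!
Leading terms of lower unitriangular matrices and their commutators; over a field of prime order
the companion matrix `w` of `(X-1)^n`, `n ≥ 4`, and its conjugate under a corner transvection
generate `SL_n`.
-/

set_option autoImplicit false

namespace Cfsg.Agent.H107.Lead

open Matrix SLHas Corner Cfsg.Agent.H107.Comp
open scoped commutatorElement

variable {n : ℕ} {F : Type*} [Field F]

/-- `g = 1 + A + ...` -/
def Lead (k : ℕ) (g : Matrix.SpecialLinearGroup (Fin n) F) (A : Matrix (Fin n) (Fin n) F) : Prop :=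
  Low k A ∧ Low (k + 1) ((g : Matrix (Fin n) (Fin n) F) - 1 - A)

variable {k l : ℕ} {g h : Matrix.SpecialLinearGroup (Fin n) F} {A B : Matrix (Fin n) (Fin n) F}

theorem Lead.low (h : Lead k g A) : Low k ((g : Matrix (Fin n) (Fin n) F) - 1) := by
  have := h.1.add (h.2.mono (by omega))
  rwa [add_sub_cancel] at this

theorem low_inv (h : Low 1 ((g : Matrix (Fin n) (Fin n) F) - 1)) :
    Low 1 (((g⁻¹ : Matrix.SpecialLinearGroup (Fin n) F) : Matrix (Fin n) (Fin n) F) - 1) := by
  set X := (g : Matrix (Fin n) (Fin n) F) - 1 with hX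
  set Y := ((g⁻¹ : Matrix.SpecialLinearGroup (Fin n) F) : Matrix (Fin n) (Fin n) F) - 1 with hY
  have h1 : Y = -X - X * Y := by
    have := mul_inv_coe g
    rw [show (g : Matrix (Fin n) (Fin n) F) = 1 + X by rw [hX]; abel,
      show ((g⁻¹ : Matrix.SpecialLinearGroup (Fin n) F) : Matrix (Fin n) (Fin n) F) = 1 + Y by
        rw [hY]; abel, add_mul, Matrix.one_mul, mul_add, Matrix.mul_one] at this
    have h2 : 1 + Y + (X + X * Y) - 1 = 0 := by rw [this, sub_self]
    have h3 : Y + (X + X * Y) = 0 := by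
      rw [← h2]; abel
    exact (eq_neg_of_add_eq_zero_left h3).trans (by abel)
  intro i
  induction i using WellFoundedLT.induction with
  | ind i ih =>
    intro j hij
    have h2 : (X * Y) i j = 0 := by
      rw [Matrix.mul_apply]
      refine Finset.sum_eq_zero fun m _ => ?_
      by_cases hm : m < i
      · rw [ih m hm j (by
          have : (m : ℕ) < i := hm
          omega), mul_zero]
      · rw [h i m (by
          have : ¬ (m : ℕ) < i := hm
          omega), zero_mul]
    rw [h1, Matrix.sub_apply, Matrix.neg_apply, h2, h i j hij]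
    simp

theorem Lead.mul (hk : 1 ≤ k) (hg : Lead k g A) (hh : Lead k h B) : Lead k (g * h) (A + B) := by
  refine ⟨hg.1.add hh.1, ?_⟩
  have e : ((g * h : Matrix.SpecialLinearGroup (Fin n) F) : Matrix (Fin n) (Fin n) F) - 1 - (A + B)
      = ((g : Matrix (Fin n) (Fin n) F) - 1) * ((h : Matrix (Fin n) (Fin n) F) - 1) +
        (((g : Matrix (Fin n) (Fin n) F) - 1 - A) + ((h : Matrix (Fin n) (Fin n) F) - 1 - B)) := by
    rw [Matrix.SpecialLinearGroup.coe_mul, Matrix.sub_mul, Matrix.mul_sub, Matrix.one_mul,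
      Matrix.mul_one]
    abel
  rw [e]
  exact ((hg.low.mul hh.low).mono (by omega)).add (hg.2.add hh.2)

theorem Lead.comm (hk : 1 ≤ k) (hl : 1 ≤ l) (hg : Lead k g A) (hh : Lead l h B) :
    Lead (k + l) ⁅g, h⁆ (A * B - B * A) := by
  have hAB : Low (k + l) (A * B - B * A) :=
    (hg.1.mul hh.1).sub ((hh.1.mul hg.1).mono (by omega))
  refine ⟨hAB, ?_⟩
  set X := (g : Matrix (Fin n) (Fin n) F) - 1 with hX
  set Y := (h : Matrix (Fin n) (Fin n) F) - 1 with hY
  have eg : (g : Matrix (Fin n) (Fin n) F) = 1 + X := by rw [hX]; abel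
  have eh : (h : Matrix (Fin n) (Fin n) F) = 1 + Y := by rw [hY]; abel
  have hgi := low_inv (hg.low.mono hk)
  have hhi := low_inv (hh.low.mono hl)
  set X' := ((g⁻¹ : Matrix.SpecialLinearGroup (Fin n) F) : Matrix (Fin n) (Fin n) F) - 1 with hX'
  set Y' := ((h⁻¹ : Matrix.SpecialLinearGroup (Fin n) F) : Matrix (Fin n) (Fin n) F) - 1 with hY'
  have eg' : ((g⁻¹ : Matrix.SpecialLinearGroup (Fin n) F) : Matrix (Fin n) (Fin n) F) = 1 + X' := by
    rw [hX']; abel
  have eh' : ((h⁻¹ : Matrix.SpecialLinearGroup (Fin n) F) : Matrix (Fin n) (Fin n) F) = 1 + Y' := by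
    rw [hY']; abel
  -- `⁅g,h⁆ - 1 = (gh - hg) g⁻¹ h⁻¹`
  have e1 : ((⁅g, h⁆ : Matrix.SpecialLinearGroup (Fin n) F) : Matrix (Fin n) (Fin n) F) - 1 =
      (X * Y - Y * X) * ((1 + X') * (1 + Y')) := by
    have h1 : X * Y - Y * X = ((g * h : Matrix.SpecialLinearGroup (Fin n) F) :
        Matrix (Fin n) (Fin n) F) - ((h * g : Matrix.SpecialLinearGroup (Fin n) F) :
        Matrix (Fin n) (Fin n) F) := by
      rw [Matrix.SpecialLinearGroup.coe_mul, Matrix.SpecialLinearGroup.coe_mul, eg, eh, add_mul,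
        add_mul, mul_add, mul_add, mul_add, mul_add]
      simp only [Matrix.one_mul, Matrix.mul_one]
      abel
    rw [h1, ← eg', ← eh', ← Matrix.SpecialLinearGroup.coe_mul, Matrix.sub_mul,
      ← Matrix.SpecialLinearGroup.coe_mul, ← Matrix.SpecialLinearGroup.coe_mul,
      commutatorElement_def]
    congr 1
    · rw [← mul_assoc (g * h)]
    · rw [show h * g * (g⁻¹ * h⁻¹) = 1 by group, Matrix.SpecialLinearGroup.coe_one]
  rw [e1]
  have hXY : Low (k + l) (X * Y - Y * X) :=
    (hg.low.mul hh.low).sub ((hh.low.mul hg.low).mono (by omega))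
  have e2 : (X * Y - Y * X) * ((1 + X') * (1 + Y')) - (A * B - B * A) =
      ((X * Y - Y * X) * (X' + Y' + X' * Y')) + ((X * (Y - B) + (X - A) * B) -
        (Y * (X - A) + (Y - B) * A)) := by
    simp only [add_mul, mul_add, Matrix.mul_sub, Matrix.sub_mul, Matrix.one_mul, Matrix.mul_one]
    abel
  rw [e2]
  have h3 : Low 1 (X' + Y' + X' * Y') := (hgi.add hhi).add ((hgi.mul hhi).mono (by omega))
  refine (hXY.mul h3).add (Low.sub (Low.add ?_ ?_) (Low.add ?_ ?_))
  · exact (hg.low.mul hh.2).mono (by omega)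
  · exact (hg.2.mul hh.1).mono (by omega)
  · exact (hh.low.mul hg.2).mono (by omega)
  · exact (hh.2.mul hg.1).mono (by omega)

/-- matrix units indexed by natural numbers -/
def EE (n : ℕ) (F : Type*) [Field F] (i k : ℕ) : Matrix (Fin n) (Fin n) F :=
  vecMulVec (e n F i) (e n F k)

theorem EE_apply (i k : ℕ) (a b : Fin n) :
    EE n F i k a b = if (a : ℕ) = i ∧ (b : ℕ) = k then 1 else 0 := by
  unfold EE
  rw [vecMulVec_apply, e_apply, e_apply]
  split_ifs <;> simp_all

theorem EE_mul_of_ne {i k l m : ℕ} (h : k ≠ l) : EE n F i k * EE n F l m = 0 := by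
  unfold EE
  rw [vecMulVec_mul_vecMulVec]
  have : e n F k ⬝ᵥ e n F l = 0 := by
    by_cases hl : l < n
    · rw [dot_e hl, e_apply, if_neg (by simpa using h.symm)]
    · rw [e_of_le (F := F) (show n ≤ l by omega), dotProduct_zero]
  rw [this, zero_smul, vecMulVec_zero]

theorem EE_mul {i k m : ℕ} (h : k < n) : EE n F i k * EE n F k m = EE n F i m := by
  unfold EE
  rw [vecMulVec_mul_vecMulVec, dot_e h, e_apply, if_pos rfl, one_smul]

theorem low_EE {i k m : ℕ} (h : k + m ≤ i) (c : F) : Low m (c • EE n F i k) := by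
  intro a b hab
  rw [Matrix.smul_apply, EE_apply, if_neg (by omega), smul_zero]

end Cfsg.Agent.H107.Lead
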