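import Mathlib
import Cfsg.Agent.H107.SLHas

/-!
Three homologies `1 + aᵢ ⊗ fᵢ` in triangular position: a transvection `1 + z a₂ ⊗ f₀` in the group
generated by the quotients of consecutive ones.
-/

set_option autoImplicit false

namespace Cfsg.Agent.H107.ThreeBlock

open Matrix SLHas

variable {n : ℕ} {F : Type*} [Field F]

/-- `1 + E X Φ` -/
def T (E : Matrix (Fin n) (Fin 3) F) (Φ : Matrix (Fin 3) (Fin n) F)
    (X : Matrix (Fin 3) (Fin 3) F) : Matrix (Fin n) (Fin n) F := 1 + E * X * Φ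

variable {E : Matrix (Fin n) (Fin 3) F} {Φ : Matrix (Fin 3) (Fin n) F}
  {G G' : Matrix (Fin 3) (Fin 3) F}

theorem T_mul (hG : Φ * E = G) (X Y : Matrix (Fin 3) (Fin 3) F) :
    T E Φ X * T E Φ Y = T E Φ (X + Y + X * G * Y) := by
  unfold T
  rw [← hG]
  simp only [Matrix.mul_add, Matrix.add_mul, Matrix.one_mul, Matrix.mul_one, Matrix.mul_assoc]
  abel

/-- the multiplicative form -/
def S (E : Matrix (Fin n) (Fin 3) F) (Φ : Matrix (Fin 3) (Fin n) F)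
    (G' M : Matrix (Fin 3) (Fin 3) F) : Matrix (Fin n) (Fin n) F := T E Φ (G' * (M - 1))

theorem S_mul (hG : Φ * E = G) (h : G * G' = 1) (M M' : Matrix (Fin 3) (Fin 3) F) :
    S E Φ G' M * S E Φ G' M' = S E Φ G' (M * M') := by
  unfold S
  rw [T_mul hG]
  congr 1
  have e1 : G' * (M - 1) * G * (G' * (M' - 1)) = G' * ((M - 1) * (M' - 1)) := by
    calc _ = G' * (M - 1) * (G * G') * (M' - 1) := by simp only [Matrix.mul_assoc]
      _ = _ := by rw [h, Matrix.mul_one, Matrix.mul_assoc]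
  rw [e1, ← Matrix.mul_add, ← Matrix.mul_add]
  congr 1
  simp only [Matrix.mul_sub, Matrix.sub_mul, Matrix.mul_one, Matrix.one_mul]
  abel

theorem S_of (h : G' * G = 1) {M X : Matrix (Fin 3) (Fin 3) F} (hM : M - 1 = G * X) :
    S E Φ G' M = T E Φ X := by
  unfold S
  rw [hM, ← Matrix.mul_assoc, h, Matrix.one_mul]

variable {H : Subgroup (Matrix.SpecialLinearGroup (Fin n) F)}

/-- membership -/
def InH (H : Subgroup (Matrix.SpecialLinearGroup (Fin n) F)) (E : Matrix (Fin n) (Fin 3) F)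
    (Φ : Matrix (Fin 3) (Fin n) F) (G' M : Matrix (Fin 3) (Fin 3) F) : Prop :=
  ∃ g ∈ H, (g : Matrix (Fin n) (Fin n) F) = S E Φ G' M

theorem InH.mul (hG : Φ * E = G) (h : G * G' = 1) {A B : Matrix (Fin 3) (Fin 3) F}
    (hA : InH H E Φ G' A) (hB : InH H E Φ G' B) : InH H E Φ G' (A * B) := by
  obtain ⟨a, ha, ea⟩ := hA
  obtain ⟨b, hb, eb⟩ := hB
  exact ⟨a * b, H.mul_mem ha hb, by rw [Matrix.SpecialLinearGroup.coe_mul, ea, eb, S_mul hG h]⟩

theorem InH.div (hG : Φ * E = G) (h : G * G' = 1) {A B C : Matrix (Fin 3) (Fin 3) F}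
    (hA : InH H E Φ G' A) (hB : InH H E Φ G' B) (hC : C * B = A) : InH H E Φ G' C := by
  obtain ⟨a, ha, ea⟩ := hA
  obtain ⟨b, hb, eb⟩ := hB
  refine ⟨a * b⁻¹, H.mul_mem ha (H.inv_mem hb), ?_⟩
  rw [Matrix.SpecialLinearGroup.coe_mul, ea, ← hC, ← S_mul hG h, ← eb, Matrix.mul_assoc,
    mul_inv_coe, Matrix.mul_one]

/-- **The three block lemma.** -/
theorem exists_transvection {a₀ a₁ a₂ f₀ f₁ f₂ : Fin n → F} {lam m κ ν : F}
    (hm : m = lam - 1) (hm0 : m ≠ 0) (hl : lam ≠ 0) (hκ : κ ≠ 0)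
    (h00 : f₀ ⬝ᵥ a₀ = m) (h01 : f₀ ⬝ᵥ a₁ = 0) (h02 : f₀ ⬝ᵥ a₂ = 0)
    (h10 : f₁ ⬝ᵥ a₀ = κ) (h11 : f₁ ⬝ᵥ a₁ = m) (h12 : f₁ ⬝ᵥ a₂ = 0)
    (h20 : f₂ ⬝ᵥ a₀ = ν) (h21 : f₂ ⬝ᵥ a₁ = κ) (h22 : f₂ ⬝ᵥ a₂ = m)
    {r₀ r₁ : Matrix.SpecialLinearGroup (Fin n) F} (hr₀ : r₀ ∈ H) (hr₁ : r₁ ∈ H)
    (e₀ : (r₀ : Matrix (Fin n) (Fin n) F) = (1 + vecMulVec a₀ f₀) * (1 - lam⁻¹ • vecMulVec a₁ f₁))
    (e₁ : (r₁ : Matrix (Fin n) (Fin n) F) = (1 + vecMulVec a₁ f₁) * (1 - lam⁻¹ • vecMulVec a₂ f₂))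
    (h3 : lam ^ 3 ≠ 1 ∨ (2 : F) = 0) :
    ∃ z : F, z ≠ 0 ∧ Has H a₂ (z • f₀) := by
  set E : Matrix (Fin n) (Fin 3) F := Matrix.of fun i j => (![a₀, a₁, a₂] j) i with hE
  set Φ : Matrix (Fin 3) (Fin n) F := Matrix.of ![f₀, f₁, f₂] with hΦ
  set G : Matrix (Fin 3) (Fin 3) F := !![m, 0, 0; κ, m, 0; ν, κ, m] with hG
  have hΦE : Φ * E = G := by
    ext i j
    rw [Matrix.mul_apply]
    change (![f₀, f₁, f₂] i) ⬝ᵥ (![a₀, a₁, a₂] j) = _
    fin_cases i <;> fin_cases j <;> simp [hG, h00, h01, h02, h10, h11, h12, h20, h21, h22]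
  have hdet : IsUnit G.det := by
    rw [isUnit_iff_ne_zero, hG, det_fin_three]
    simp [hm0]
  have hG1 : G * G⁻¹ = 1 := Matrix.mul_nonsing_inv G hdet
  have hG2 : G⁻¹ * G = 1 := Matrix.nonsing_inv_mul G hdet
  have hT : ∀ X : Matrix (Fin 3) (Fin 3) F, T E Φ X = 1 + ∑ i, ∑ j, X i j •
      vecMulVec (![a₀, a₁, a₂] i) (![f₀, f₁, f₂] j) := by
    intro X
    unfold T
    congr 1
    ext k l
    rw [Matrix.mul_apply]
    simp only [Matrix.mul_apply, Matrix.sum_apply, Matrix.add_apply, Matrix.smul_apply,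
      vecMulVec_apply, smul_eq_mul, Fin.sum_univ_three, hE, hΦ, Matrix.of_apply]
    ring
  -- the two elements
  have hM0 : InH H E Φ G⁻¹ !![lam, 0, 0; κ, lam⁻¹, 0; ν, -(lam⁻¹ * κ), 1] := by
    refine ⟨r₀, hr₀, ?_⟩
    rw [S_of hG2 (X := !![1, 0, 0; 0, -lam⁻¹, 0; 0, 0, 0]), hT, e₀]
    · rw [Matrix.mul_sub, Matrix.mul_one, Matrix.mul_smul, Matrix.add_mul, Matrix.one_mul,
        vecMulVec_mul_vecMulVec, h01, zero_smul, vecMulVec_zero]
      simp [Fin.sum_univ_three]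
      abel
    · rw [hG]
      ext i j
      fin_cases i <;> fin_cases j <;>
        simp [Matrix.mul_apply, Fin.sum_univ_three, Matrix.one_apply, hm] <;> field_simp <;> ring
  have hM1 : InH H E Φ G⁻¹ !![1, 0, 0; 0, lam, 0; 0, κ, lam⁻¹] := by
    refine ⟨r₁, hr₁, ?_⟩
    rw [S_of hG2 (X := !![0, 0, 0; 0, 1, 0; 0, 0, -lam⁻¹]), hT, e₁]
    · rw [Matrix.mul_sub, Matrix.mul_one, Matrix.mul_smul, Matrix.add_mul, Matrix.one_mul,
        vecMulVec_mul_vecMulVec, h12, zero_smul, vecMulVec_zero]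
      simp [Fin.sum_univ_three]
      abel
    · rw [hG]
      ext i j
      fin_cases i <;> fin_cases j <;>
        simp [Matrix.mul_apply, Fin.sum_univ_three, Matrix.one_apply, hm] <;> field_simp <;> ring
  -- the commutator
  set x : F := -(κ * m * lam⁻¹) with hx
  set y : F := -(κ * m * lam⁻¹ * lam⁻¹) with hy
  set z : F := (ν * m - κ ^ 2) * lam⁻¹ * lam⁻¹ with hz
  have hg : InH H E Φ G⁻¹ !![1, 0, 0; x, 1, 0; z, y, 1] := by
    refine InH.div hΦE hG1 (InH.mul hΦE hG1 hM0 hM1) (InH.mul hΦE hG1 hM1 hM0) ?_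
    ext i j
    fin_cases i <;> fin_cases j <;>
      simp [Matrix.mul_apply, Fin.sum_univ_three, hx, hy, hz, hm] <;> field_simp <;> ring
  have hxy : x * y ≠ 0 := by
    rw [hx, hy]
    refine mul_ne_zero (neg_ne_zero.2 ?_) (neg_ne_zero.2 ?_)
    · exact mul_ne_zero (mul_ne_zero hκ hm0) (inv_ne_zero hl)
    · exact mul_ne_zero (mul_ne_zero (mul_ne_zero hκ hm0) (inv_ne_zero hl)) (inv_ne_zero hl)
  -- a transvection
  have hfin : ∃ ζ : F, ζ ≠ 0 ∧ InH H E Φ G⁻¹ !![1, 0, 0; 0, 1, 0; ζ, 0, 1] := by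
    rcases h3 with h3 | h3
    · set x' : F := lam⁻¹ * lam⁻¹ * x with hx'
      set y' : F := lam * y with hy'
      set z' : F := (z - lam⁻¹ * κ * x - lam * y * κ) * lam⁻¹ with hz'
      have hg' : InH H E Φ G⁻¹ !![1, 0, 0; x', 1, 0; z', y', 1] := by
        refine InH.div hΦE hG1 (InH.mul hΦE hG1 hM0 hg) hM0 ?_
        ext i j
        fin_cases i <;> fin_cases j <;>
          simp [Matrix.mul_apply, Fin.sum_univ_three, hx', hy', hz'] <;> field_simp <;> ring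
      refine ⟨y * x' - y' * x, ?_, ?_⟩
      · have : y * x' - y' * x = x * y * (lam⁻¹ * lam⁻¹) * (1 - lam ^ 3) := by
          rw [hx', hy']
          field_simp
        rw [this]
        refine mul_ne_zero (mul_ne_zero hxy (mul_ne_zero (inv_ne_zero hl) (inv_ne_zero hl))) ?_
        rw [sub_ne_zero]
        exact h3.symm
      · refine InH.div hΦE hG1 (InH.mul hΦE hG1 hg hg') (InH.mul hΦE hG1 hg' hg) ?_
        ext i j
        fin_cases i <;> fin_cases j <;>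
          simp [Matrix.mul_apply, Fin.sum_univ_three] <;> ring
    · refine ⟨x * y, hxy, ?_⟩
      have h4 := InH.mul hΦE hG1 hg hg
      have e2 : ∀ c : F, c + c = 0 := fun c => by rw [← two_mul, h3, zero_mul]
      have h5 : (!![1, 0, 0; x, 1, 0; z, y, 1] : Matrix (Fin 3) (Fin 3) F) *
          !![1, 0, 0; x, 1, 0; z, y, 1] = !![1, 0, 0; x + x, 1, 0; z + z + x * y, y + y, 1] := by
        ext i j
        fin_cases i <;> fin_cases j <;>
          simp [Matrix.mul_apply, Fin.sum_univ_three] <;> ring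
      rw [h5, e2 x, e2 y, e2 z, zero_add] at h4
      exact h4
  obtain ⟨ζ, hζ, g, hg, eg⟩ := hfin
  refine ⟨ζ * m⁻¹, mul_ne_zero hζ (inv_ne_zero hm0), ?_, g, hg, ?_⟩
  · rw [smul_dotProduct, h02, smul_zero]
  · rw [eg, S_of hG2 (X := !![0, 0, 0; 0, 0, 0; ζ * m⁻¹, 0, 0]), hT]
    · simp [Fin.sum_univ_three, vecMulVec_smul]
    · rw [hG]
      ext i j
      fin_cases i <;> fin_cases j <;>
        simp [Matrix.mul_apply, Fin.sum_univ_three, Matrix.one_apply] <;> field_simp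

end Cfsg.Agent.H107.ThreeBlock
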