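import Mathlib
import Cfsg.Agent.H107.Lead

/-!
Over a field of prime order the companion matrix `w` of `(X-1)^n`, `n ≥ 4`, and its conjugate
under a corner transvection generate `SL_n`.
-/

set_option autoImplicit false

namespace Cfsg.Agent.H107.TwoPrime

open Matrix SLHas Corner Cfsg.Agent.H107.Comp Cfsg.Agent.H107.Lead
open scoped commutatorElement

variable {n : ℕ} {F : Type*} [Field F]

/-- the upper right corner transvection -/
def P (hn : 4 ≤ n) (τ : F) : Matrix.SpecialLinearGroup (Fin n) F :=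
  Matrix.SpecialLinearGroup.transvection
    (show (⟨0, by omega⟩ : Fin n) ≠ ⟨n - 1, by omega⟩ by
      intro h; rw [Fin.mk.injEq] at h; omega) τ

theorem P_coe (hn : 4 ≤ n) (τ : F) :
    (P hn τ : Matrix (Fin n) (Fin n) F) = 1 + τ • vecMulVec (e n F 0) (e n F (n - 1)) := by
  change (1 : Matrix (Fin n) (Fin n) F) + single _ _ τ = _
  congr 1
  ext k l
  simp only [single_apply, Matrix.smul_apply, vecMulVec_apply, e_apply]
  by_cases h1 : (k : ℕ) = 0 <;> by_cases h2 : (l : ℕ) = n - 1 <;>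
    simp [h1, h2, Fin.ext_iff, eq_comm]

theorem P_inv (hn : 4 ≤ n) (τ : F) : (P hn τ)⁻¹ = P hn (-τ) := by
  rw [inv_eq_iff_mul_eq_one]
  apply Subtype.ext
  have h0 : vecMulVec (e n F 0) (e n F (n - 1)) * vecMulVec (e n F 0) (e n F (n - 1)) = 0 := by
    rw [vecMulVec_mul_vecMulVec, show e n F (n - 1) ⬝ᵥ e n F 0 = 0 by
      rw [dot_e (show 0 < n by omega), e_apply, if_neg (by simp; omega)], zero_smul,
      vecMulVec_zero]
  rw [Matrix.SpecialLinearGroup.coe_mul, P_coe, P_coe, Matrix.SpecialLinearGroup.coe_one, mul_add,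
    Matrix.mul_one, add_mul, Matrix.one_mul, Matrix.smul_mul, Matrix.mul_smul, h0, neg_smul,
    smul_zero, smul_zero]
  abel

variable {w : Matrix.SpecialLinearGroup (Fin n) F}

/-- `w^j P w^{-j}` -/
def R (hn : 4 ≤ n) (w : Matrix.SpecialLinearGroup (Fin n) F) (j : ℕ) (τ : F) :
    Matrix.SpecialLinearGroup (Fin n) F :=
  w ^ j * P hn τ * (w ^ j)⁻¹

/-- the functional `e_{n-1} w^{-j}` -/
def rho (w : Matrix.SpecialLinearGroup (Fin n) F) (j : ℕ) : Fin n → F :=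
  e n F (n - 1) ᵥ* (((w ^ j)⁻¹ : Matrix.SpecialLinearGroup (Fin n) F) : Matrix (Fin n) (Fin n) F)

theorem inv_pow_mulVec (hw : Shift w) {j k : ℕ} (h : k + j < n) :
    (((w ^ j)⁻¹ : Matrix.SpecialLinearGroup (Fin n) F) : Matrix (Fin n) (Fin n) F) *ᵥ
      e n F (k + j) = e n F k := by
  rw [← hw.pow_mulVec j k h, ← Matrix.SpecialLinearGroup.coe_pow, mulVec_mulVec, inv_mul_coe,
    one_mulVec]

theorem rho_apply (w : Matrix.SpecialLinearGroup (Fin n) F) (j : ℕ) {k : ℕ} (hk : k < n) :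
    rho w j ⟨k, hk⟩ = e n F (n - 1) ⬝ᵥ
      ((((w ^ j)⁻¹ : Matrix.SpecialLinearGroup (Fin n) F) : Matrix (Fin n) (Fin n) F) *ᵥ
        e n F k) := by
  rw [dotProduct_mulVec, dot_e hk]
  rfl

theorem rho_ge (hw : Shift w) {j k : ℕ} (hj : 1 ≤ j) (hjk : j ≤ k) (hk : k < n) :
    rho w j ⟨k, hk⟩ = 0 := by
  obtain ⟨d, rfl⟩ := Nat.exists_eq_add_of_le' hjk
  rw [rho_apply, inv_pow_mulVec hw hk, dot_e (by omega), e_apply, if_neg (by simp; omega)]

theorem rho_pred (hw : Shift w) {j : ℕ} (hj : j + 1 < n) :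
    rho w (j + 1) ⟨j, by omega⟩ = rho w 1 ⟨0, by omega⟩ := by
  rw [rho_apply, rho_apply]
  congr 1
  have h1 : ((((w ^ (j + 1))⁻¹ : Matrix.SpecialLinearGroup (Fin n) F)) :
      Matrix (Fin n) (Fin n) F) = (((w ^ 1)⁻¹ : Matrix.SpecialLinearGroup (Fin n) F) :
      Matrix (Fin n) (Fin n) F) * (((w ^ j)⁻¹ : Matrix.SpecialLinearGroup (Fin n) F) :
      Matrix (Fin n) (Fin n) F) := by
    have h2 : (w ^ (j + 1))⁻¹ = (w ^ 1)⁻¹ * (w ^ j)⁻¹ := by rw [← _root_.mul_inv_rev, ← pow_add]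
    rw [h2, Matrix.SpecialLinearGroup.coe_mul]
  rw [h1, ← mulVec_mulVec]
  congr 1
  have := inv_pow_mulVec hw (j := j) (k := 0) (by omega)
  rwa [zero_add] at this

theorem rho_one_ne (hn : 4 ≤ n) (hw : Shift w) : rho w 1 ⟨0, by omega⟩ ≠ 0 := by
  intro h
  have h1 : rho w 1 = 0 := by
    ext i
    by_cases hi : (i : ℕ) = 0
    · have : i = ⟨0, by omega⟩ := Fin.ext hi
      rw [this, h]; rfl
    · exact rho_ge hw le_rfl (by omega) i.2
  have h2 : e n F (n - 1) = 0 := by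
    calc e n F (n - 1) = rho w 1 ᵥ* ((w ^ 1 : Matrix.SpecialLinearGroup (Fin n) F) :
          Matrix (Fin n) (Fin n) F) := by
          unfold rho
          rw [vecMul_vecMul, inv_mul_coe, vecMul_one]
      _ = 0 := by rw [h1, zero_vecMul]
  have h3 := congrFun h2 ⟨n - 1, by omega⟩
  rw [e_apply, if_pos rfl] at h3
  exact one_ne_zero h3

theorem R_coe (hn : 4 ≤ n) (hw : Shift w) {j : ℕ} (hj : j < n) (τ : F) :
    (R hn w j τ : Matrix (Fin n) (Fin n) F) = 1 + τ • vecMulVec (e n F j) (rho w j) := by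
  unfold R
  rw [Matrix.SpecialLinearGroup.coe_mul, Matrix.SpecialLinearGroup.coe_mul, P_coe, mul_add,
    add_mul, Matrix.mul_one, mul_inv_coe, Matrix.mul_smul, Matrix.smul_mul, mul_vecMulVec, vecMulVec_mul,
    Matrix.SpecialLinearGroup.coe_pow, hw.pow_mulVec j 0 (by omega), zero_add]
  rfl

theorem R_inv (hn : 4 ≤ n) (j : ℕ) (τ : F) : (R hn w j τ)⁻¹ = R hn w j (-τ) := by
  unfold R
  rw [← P_inv]
  group

theorem lead_R (hn : 4 ≤ n) (hw : Shift w) {j : ℕ} (hj : j + 1 < n) (τ : F) :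
    Lead 1 (R hn w (j + 1) τ) ((τ * rho w 1 ⟨0, by omega⟩) • EE n F (j + 1) j) := by
  refine ⟨low_EE (by omega) _, ?_⟩
  rw [R_coe hn hw hj, add_sub_cancel_left]
  intro a b hab
  rw [Matrix.sub_apply, Matrix.smul_apply, Matrix.smul_apply, vecMulVec_apply, e_apply, EE_apply]
  by_cases ha : (a : ℕ) = j + 1
  · rw [if_pos ha, one_mul]
    by_cases hb : (b : ℕ) = j
    · have : b = ⟨j, by omega⟩ := Fin.ext hb
      rw [if_pos ⟨ha, hb⟩, this, rho_pred hw hj]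
      simp
    · rw [if_neg (fun h => hb h.2)]
      have := rho_ge hw (j := j + 1) (k := b) (by omega) (by omega) b.2
      rw [Fin.eta] at this
      rw [this]
      simp
  · rw [if_neg ha, if_neg (fun h => ha h.1)]
    simp

/-- `w^j (P w P⁻¹ w⁻¹) w^{-j}` -/
theorem lead_r (hn : 4 ≤ n) (hw : Shift w) {j : ℕ} (hj : j + 2 < n) :
    Lead 1 (R hn w (j + 1) 1 * (R hn w (j + 2) 1)⁻¹)
      ((rho w 1 ⟨0, by omega⟩) • EE n F (j + 1) j + (-rho w 1 ⟨0, by omega⟩) •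
        EE n F (j + 2) (j + 1)) := by
  rw [R_inv]
  have h1 := lead_R hn hw (j := j) (by omega) 1
  have h2 := lead_R hn hw (j := j + 1) (by omega) (-1)
  rw [one_mul] at h1
  rw [neg_one_mul] at h2
  exact Lead.mul le_rfl h1 h2

theorem r_mem (hn : 4 ≤ n) {H : Subgroup (Matrix.SpecialLinearGroup (Fin n) F)} (hwH : w ∈ H)
    (hv : P hn 1 * w * (P hn 1)⁻¹ ∈ H) (j : ℕ) :
    R hn w (j + 1) 1 * (R hn w (j + 2) 1)⁻¹ ∈ H := by
  have h1 : R hn w (j + 1) 1 * (R hn w (j + 2) 1)⁻¹ =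
      w ^ (j + 1) * (P hn 1 * w * (P hn 1)⁻¹ * w⁻¹) * (w ^ (j + 1))⁻¹ := by
    unfold R
    rw [pow_succ w (j + 1)]
    group
  rw [h1]
  exact H.mul_mem (H.mul_mem (H.pow_mem hwH _) (H.mul_mem hv (H.inv_mem hwH)))
    (H.inv_mem (H.pow_mem hwH _))

theorem chain (hn : 4 ≤ n) {H : Subgroup (Matrix.SpecialLinearGroup (Fin n) F)} (hw : Shift w)
    (hwH : w ∈ H) (hv : P hn 1 * w * (P hn 1)⁻¹ ∈ H) (k : ℕ) (hk : k + 2 < n) :
    ∃ g ∈ H, ∃ α β : F, β ≠ 0 ∧
      Lead (k + 1) g (α • EE n F (k + 1) 0 + β • EE n F (k + 2) 1) := by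
  have hc := rho_one_ne hn hw
  induction k with
  | zero =>
    exact ⟨_, r_mem hn hwH hv 0, _, _, neg_ne_zero.2 hc, lead_r hn hw (j := 0) (by omega)⟩
  | succ k ih =>
    obtain ⟨g, hg, α, β, hβ, hL⟩ := ih (by omega)
    have h2 := lead_r hn hw (j := k + 1) (by omega)
    set c := rho w 1 ⟨0, by omega⟩ with hcd
    have h3 := Lead.comm (by omega) le_rfl hL h2
    have hr := r_mem hn hwH hv (k + 1)
    refine ⟨_, H.mul_mem (H.mul_mem (H.mul_mem hg hr) (H.inv_mem hg)) (H.inv_mem hr),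
      -(c * α), c * β, mul_ne_zero hc hβ, ?_⟩
    rw [show -(c * α) • EE n F (k + 1 + 1) 0 + (c * β) • EE n F (k + 1 + 2) 1 =
      (α • EE n F (k + 1) 0 + β • EE n F (k + 2) 1) *
        (c • EE n F (k + 1 + 1) (k + 1) + (-c) • EE n F (k + 1 + 2) (k + 1 + 1)) -
      (c • EE n F (k + 1 + 1) (k + 1) + (-c) • EE n F (k + 1 + 2) (k + 1 + 1)) *
        (α • EE n F (k + 1) 0 + β • EE n F (k + 2) 1) by
      simp only [mul_add, add_mul, Matrix.smul_mul, Matrix.mul_smul]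
      rw [EE_mul_of_ne (show 0 ≠ k + 1 + 1 by omega), EE_mul_of_ne (show 0 ≠ k + 1 + 2 by omega),
        EE_mul_of_ne (show 1 ≠ k + 1 + 1 by omega), EE_mul_of_ne (show 1 ≠ k + 1 + 2 by omega),
        EE_mul (show k + 1 < n by omega), EE_mul_of_ne (show k + 1 ≠ k + 2 by omega),
        EE_mul_of_ne (show k + 1 + 1 ≠ k + 1 by omega), EE_mul (show k + 1 + 1 < n by omega)]
      simp only [smul_zero, add_zero, zero_add, zero_sub, smul_smul]
      module]
    exact h3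

/-- the corner transvection lies in `⟨w, P w P⁻¹⟩` -/
theorem corner_mem (hn : 4 ≤ n) {H : Subgroup (Matrix.SpecialLinearGroup (Fin n) F)}
    (hw : Shift w) (hwH : w ∈ H) (hv : P hn 1 * w * (P hn 1)⁻¹ ∈ H) :
    ∃ τ : F, τ ≠ 0 ∧ Has H (e n F (n - 1)) (τ • e n F 0) := by
  have hc := rho_one_ne hn hw
  obtain ⟨m, rfl⟩ : ∃ m, n = m + 4 := ⟨n - 4, by omega⟩
  obtain ⟨g, hg, α, β, hβ, hL⟩ := chain hn hw hwH hv (m + 1) (by omega)
  have h2 := lead_r hn hw (j := 0) (by omega)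
  have hr := r_mem hn hwH hv 0
  set c := rho w 1 ⟨0, by omega⟩ with hcd
  have h3 := Lead.comm (by omega) le_rfl hL h2
  rw [show (α • EE (m + 4) F (m + 1 + 1) 0 + β • EE (m + 4) F (m + 1 + 2) 1) *
        (c • EE (m + 4) F (0 + 1) 0 + (-c) • EE (m + 4) F (0 + 2) (0 + 1)) -
      (c • EE (m + 4) F (0 + 1) 0 + (-c) • EE (m + 4) F (0 + 2) (0 + 1)) *
        (α • EE (m + 4) F (m + 1 + 1) 0 + β • EE (m + 4) F (m + 1 + 2) 1) =
      (β * c) • EE (m + 4) F (m + 3) 0 by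
      simp only [mul_add, add_mul, Matrix.smul_mul, Matrix.mul_smul]
      rw [EE_mul_of_ne (show 0 ≠ 0 + 1 by omega), EE_mul_of_ne (show 0 ≠ 0 + 2 by omega),
        EE_mul (show 1 < m + 4 by omega), EE_mul_of_ne (show 1 ≠ 0 + 2 by omega),
        EE_mul_of_ne (show 0 ≠ m + 1 + 1 by omega), EE_mul_of_ne (show 0 ≠ m + 1 + 2 by omega),
        EE_mul_of_ne (show 0 + 1 ≠ m + 1 + 1 by omega),
        EE_mul_of_ne (show 0 + 1 ≠ m + 1 + 2 by omega)]
      simp only [smul_zero, add_zero, zero_add, sub_zero, smul_smul]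
      rw [mul_comm c β]] at h3
  have h4 := h3.2.eq_zero (by omega)
  refine ⟨β * c, mul_ne_zero hβ hc, ?_, _,
    H.mul_mem (H.mul_mem (H.mul_mem hg hr) (H.inv_mem hg)) (H.inv_mem hr), ?_⟩
  · rw [smul_dotProduct, dot_e (by omega), e_apply, if_neg (by simp), smul_zero]
  · rw [sub_sub, sub_eq_zero] at h4
    rw [vecMulVec_smul]
    exact h4

/-- **Two conjugate regular unipotent elements generate `SL_n(p)`.** -/
theorem top (hn : 4 ≤ n) [Fintype F] (hp : (Fintype.card F).Prime)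
    {H : Subgroup (Matrix.SpecialLinearGroup (Fin n) F)} (hw : Shift w)
    (hwH : w ∈ H) (hv : P hn 1 * w * (P hn 1)⁻¹ ∈ H) : H = ⊤ := by
  obtain ⟨τ, hτ, h⟩ := corner_mem hn hw hwH hv
  exact top_of_corner (by omega) hw hwH (full_of_has hp hτ h)

theorem exists_two (hn : 4 ≤ n) [Fintype F] (hp : (Fintype.card F).Prime) :
    ∃ u g : Matrix.SpecialLinearGroup (Fin n) F, Reg (u : Matrix (Fin n) (Fin n) F) ∧
      Subgroup.closure ({u, g * u * g⁻¹} : Set (Matrix.SpecialLinearGroup (Fin n) F)) = ⊤ := by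
  obtain ⟨w, b, hwb, hw⟩ := exists_comp n F
  refine ⟨w, P hn 1, ?_, ?_⟩
  · rw [hwb]
    exact (reg_one_add_N (by omega)).conj (u := J n F) b
  · exact top hn hp hw (Subgroup.subset_closure (by simp)) (Subgroup.subset_closure (by simp))

end Cfsg.Agent.H107.TwoPrime
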